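import Mathlib

/-!
Finite linear groups with the translation property of binary affine groups: for each vector `δ` one
element translates by `δ` all the vectors that some element translates by `δ`.
-/

set_option autoImplicit false

namespace Cfsg.Agent.H13.Binary

variable {p : ℕ} {V : Type*} [AddCommGroup V] [Module (ZMod p) V]

/-- The fixed vectors of a linear automorphism. -/
def fx (h : V ≃ₗ[ZMod p] V) : Submodule (ZMod p) V :=
  LinearMap.ker (h.toLinearMap - LinearMap.id)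

/-- The displacements of a linear automorphism. -/
def im (h : V ≃ₗ[ZMod p] V) : Submodule (ZMod p) V :=
  LinearMap.range (h.toLinearMap - LinearMap.id)

theorem mem_fx {h : V ≃ₗ[ZMod p] V} {v : V} : v ∈ fx h ↔ h v = v := by
  simp [fx, sub_eq_zero]

theorem mem_im {h : V ≃ₗ[ZMod p] V} {t : V} : t ∈ im h ↔ ∃ b, h b = b + t := by
  simp only [im, LinearMap.mem_range, LinearMap.sub_apply, LinearEquiv.coe_coe, LinearMap.id_apply,
    sub_eq_iff_eq_add']

theorem sub_mem_im (h : V ≃ₗ[ZMod p] V) (v : V) : h v - v ∈ im h :=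
  mem_im.2 ⟨v, by abel⟩

theorem inv_apply_apply (h : V ≃ₗ[ZMod p] V) (v : V) : h⁻¹ (h v) = v := h.symm_apply_apply v

theorem apply_inv_apply (h : V ≃ₗ[ZMod p] V) (v : V) : h (h⁻¹ v) = v := h.apply_symm_apply v

theorem one_apply (v : V) : (1 : V ≃ₗ[ZMod p] V) v = v := rfl

theorem mul_apply (g h : V ≃ₗ[ZMod p] V) (v : V) : (g * h) v = g (h v) := rfl

theorem fx_ne_top {h : V ≃ₗ[ZMod p] V} (hh : h ≠ 1) : ∃ v, h v ≠ v := by
  by_contra hc
  push Not at hc
  exact hh (LinearEquiv.ext hc)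

variable (H : Subgroup (V ≃ₗ[ZMod p] V))

/-- One element translates by `δ` every vector that some element translates by `δ`. -/
def Trans : Prop :=
  ∀ δ : V, ∀ B : Set V, (∀ b ∈ B, ∃ h ∈ H, h b = b + δ) → ∃ g ∈ H, ∀ b ∈ B, g b = b + δ

/-- An element with maximal fixed space. -/
structure IsMax (g : V ≃ₗ[ZMod p] V) : Prop where
  mem : g ∈ H
  ne_one : g ≠ 1
  eq_of_le : ∀ h ∈ H, h ≠ 1 → fx g ≤ fx h → fx h = fx g

variable {H}

theorem Trans.witness (hT : Trans H) (δ : V) :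
    ∃ w ∈ H, ∀ h ∈ H, ∀ b : V, h b = b + δ → w b = b + δ := by
  obtain ⟨w, hw, hw'⟩ := hT δ {b | ∃ h ∈ H, h b = b + δ} (fun b hb => hb)
  exact ⟨w, hw, fun h hh b hb => hw' b ⟨h, hh, hb⟩⟩

/-- The witness of `δ` negates `δ`. -/
theorem witness_neg {δ : V} {w h : V ≃ₗ[ZMod p] V} (hh : h ∈ H)
    (hw : ∀ k ∈ H, ∀ b : V, k b = b + δ → w b = b + δ) {b : V} (hb : h b = b + δ) : w δ = -δ := by
  have h1 := hw h hh b hb
  have h2 : h⁻¹ (-b - δ) = (-b - δ) + δ := by
    rw [show -b - δ = -(h b) by rw [hb]; abel, map_neg, inv_apply_apply, hb]; abel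
  have h3 := hw h⁻¹ (inv_mem hh) _ h2
  rw [map_sub, map_neg, h1] at h3
  have h4 : w δ = -(b + δ) - (-b - δ + δ) := by rw [← h3]; abel
  rw [h4]; abel

theorem IsMax.fx_eq {g h : V ≃ₗ[ZMod p] V} (hg : IsMax H g) (hh : h ∈ H) (hle : fx g ≤ fx h) :
    h = 1 ∨ fx h = fx g :=
  or_iff_not_imp_left.2 fun h1 => hg.eq_of_le h hh h1 hle

theorem IsMax.eq_one_of_fx {g h : V ≃ₗ[ZMod p] V} (hg : IsMax H g) (hh : h ∈ H) (hle : fx g ≤ fx h)
    {v : V} (hv : v ∉ fx g) (hvh : v ∈ fx h) : h = 1 :=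
  (hg.fx_eq hh hle).resolve_right fun e => hv (e ▸ hvh)

theorem exists_isMax [Finite V] (h0 : V ≃ₗ[ZMod p] V) (hh : h0 ∈ H) (h1 : h0 ≠ 1) :
    ∃ g, IsMax H g ∧ fx h0 ≤ fx g := by
  haveI : Finite (V ≃ₗ[ZMod p] V) := Finite.of_injective _ DFunLike.coe_injective
  obtain ⟨g, ⟨⟨hgH, hg1, hle⟩, hmax⟩⟩ :=
    Set.exists_max_image {h : V ≃ₗ[ZMod p] V | h ∈ H ∧ h ≠ 1 ∧ fx h0 ≤ fx h}
      (fun h => (fx h : Set V).ncard) (Set.toFinite _) ⟨h0, hh, h1, le_rfl⟩
  refine ⟨g, ⟨hgH, hg1, fun k hk hk1 hgk => ?_⟩, hle⟩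
  exact (SetLike.coe_injective
    (Set.eq_of_subset_of_ncard_le hgk (hmax k ⟨hk, hk1, hle.trans hgk⟩) (Set.toFinite _))).symm

variable (hT : Trans H)
include hT

/-- An element that moves `v` inside the displacement space of a maximal `g` agrees with `g` at `v`. -/
theorem IsMax.agree {g h : V ≃ₗ[ZMod p] V} (hg : IsMax H g) (hh : h ∈ H) {v : V}
    (hd : h v - v ∈ im g) (hne : h v ≠ v) : g v = h v := by
  obtain ⟨b, hb⟩ := mem_im.1 hd
  obtain ⟨w, hwH, hw⟩ := hT.witness (h v - v)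
  have hwv : w v = v + (h v - v) := hw h hh v (by abel)
  have hwb := hw g hg.mem b hb
  have hw1 : w ≠ 1 := fun e => hne (by rw [e, one_apply] at hwv; exact (hwv.trans (by abel)).symm)
  have hle : fx g ≤ fx w := fun z hz => by
    rw [mem_fx] at hz ⊢
    have := hw g hg.mem (b + z) (by rw [map_add, hb, hz]; abel)
    rw [map_add, hwb] at this
    calc w z = (b + (h v - v) + w z) - (b + (h v - v)) := by abel
      _ = (b + z + (h v - v)) - (b + (h v - v)) := by rw [this]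
      _ = z := by abel
  have hmem : v - b ∈ fx w := mem_fx.2 (by rw [map_sub, hwv, hwb]; abel)
  rw [hg.eq_of_le w hwH hw1 hle, mem_fx, map_sub, hb] at hmem
  calc g v = (g v - (b + (h v - v))) + (b + (h v - v)) := by abel
    _ = (v - b) + (b + (h v - v)) := by rw [hmem]
    _ = h v := by abel

theorem IsMax.apply_apply {g : V ≃ₗ[ZMod p] V} (hg : IsMax H g) (v : V) : g (g v) = v := by
  by_cases hv : g v = v
  · rw [hv, hv]
  have h : g v = g⁻¹ v := hg.agree hT (inv_mem hg.mem) (mem_im.2 ⟨-(g⁻¹ v), by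
      rw [map_neg, apply_inv_apply]; abel⟩)
    (fun e => hv (by conv_lhs => rw [← e, apply_inv_apply]))
  conv_lhs => rw [h, apply_inv_apply]

theorem IsMax.mul_self {g : V ≃ₗ[ZMod p] V} (hg : IsMax H g) : g * g = 1 :=
  LinearEquiv.ext fun v => by rw [mul_apply, hg.apply_apply hT, one_apply]

theorem IsMax.inv_eq {g : V ≃ₗ[ZMod p] V} (hg : IsMax H g) : g⁻¹ = g :=
  inv_eq_of_mul_eq_one_right (hg.mul_self hT)

/-- A maximal element negates its displacements. -/
theorem IsMax.apply_im {g : V ≃ₗ[ZMod p] V} (hg : IsMax H g) {t : V} (ht : t ∈ im g) : g t = -t := by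
  obtain ⟨b, hb⟩ := mem_im.1 ht
  have h := hg.apply_apply hT b
  rw [hb, map_add, hb] at h
  calc g t = (b + t + g t) - b - t := by abel
    _ = b - b - t := by rw [h]
    _ = -t := by abel

/-- Maximal elements are determined by any one nonzero displacement. -/
theorem IsMax.eq_of_im {g g' : V ≃ₗ[ZMod p] V} (hg : IsMax H g) (hg' : IsMax H g') {t : V}
    (ht : t ∈ im g) (ht' : t ∈ im g') (h0 : t ≠ 0) : g' = g := by
  obtain ⟨b, hb⟩ := mem_im.1 ht'
  have hne : g' b ≠ b := by rw [hb]; simpa using h0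
  have hgb : g b = b + t := (hg.agree hT hg'.mem (by rw [hb]; simpa using ht) hne).trans hb
  -- both fixed spaces are the translates of one solution set
  have hfx : fx g ≤ fx g' := fun z hz => by
    rw [mem_fx] at hz ⊢
    have h1 : g (b + z) = b + z + t := by rw [map_add, hgb, hz]; abel
    have h2 : g' (b + z) = g (b + z) :=
      hg'.agree hT hg.mem (by rw [h1]; simpa using ht') (by rw [h1]; simpa using h0)
    rw [h1, map_add, hb] at h2
    calc g' z = (b + t + g' z) - (b + t) := by abel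
      _ = (b + z + t) - (b + t) := by rw [h2]
      _ = z := by abel
  have hb' : b ∉ fx g := fun e => hne (mem_fx.1 (hfx e))
  have hone : g' * g = 1 := hg.eq_one_of_fx (mul_mem hg'.mem hg.mem)
    (fun z hz => mem_fx.2 (by rw [mul_apply, mem_fx.1 hz, mem_fx.1 (hfx hz)])) hb'
    (mem_fx.2 (by rw [mul_apply, hgb, ← hb, hg'.apply_apply hT]))
  exact (eq_inv_of_mul_eq_one_left hone).trans (hg.inv_eq hT)

omit hT in
theorem fx_conj (h g : V ≃ₗ[ZMod p] V) {v : V} : v ∈ fx (h * g * h⁻¹) ↔ h⁻¹ v ∈ fx g := by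
  rw [mem_fx, mem_fx, mul_apply, mul_apply]
  constructor
  · intro e
    conv_rhs => rw [← e, inv_apply_apply]
  · intro e
    rw [e, apply_inv_apply]

omit hT in
theorem im_conj (h g : V ≃ₗ[ZMod p] V) {t : V} (ht : t ∈ im g) : h t ∈ im (h * g * h⁻¹) := by
  obtain ⟨b, hb⟩ := mem_im.1 ht
  exact mem_im.2 ⟨h b, by rw [mul_apply, mul_apply, inv_apply_apply, hb, map_add]⟩

omit hT in
theorem IsMax.conj {g h : V ≃ₗ[ZMod p] V} (hg : IsMax H g) (hh : h ∈ H) : IsMax H (h * g * h⁻¹) := by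
  refine ⟨mul_mem (mul_mem hh hg.mem) (inv_mem hh), fun e => hg.ne_one ?_, fun k hk hk1 hle => ?_⟩
  · calc g = h⁻¹ * (h * g * h⁻¹) * h := by group
      _ = 1 := by rw [e]; group
  · have h1 : h⁻¹ * k * h ≠ 1 := fun e => hk1 <| by
      calc k = h * (h⁻¹ * k * h) * h⁻¹ := by group
        _ = 1 := by rw [e]; group
    have := hg.eq_of_le (h⁻¹ * k * h) (mul_mem (mul_mem (inv_mem hh) hk) hh) h1 fun z hz => by
      have hz' : h z ∈ fx (h * g * h⁻¹) := (fx_conj h g).2 (by rwa [inv_apply_apply])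
      rw [mem_fx, mul_apply, mul_apply, mem_fx.1 (hle hz'), inv_apply_apply]
    refine le_antisymm (fun v hv => (fx_conj h g).2 ?_) hle
    rw [← this, mem_fx, mul_apply, mul_apply, apply_inv_apply, mem_fx.1 hv]

/-- Two maximal elements commute or their displacements avoid each other's fixed spaces. -/
theorem IsMax.commute_of_mem {g g' : V ≃ₗ[ZMod p] V} (hg : IsMax H g) (hg' : IsMax H g') {t : V}
    (ht : t ∈ im g') (hf : t ∈ fx g) (h0 : t ≠ 0) : g * g' = g' * g := by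
  have h1 := im_conj g g' ht
  rw [mem_fx.1 hf] at h1
  have h2 := hg'.eq_of_im hT (hg'.conj hg.mem) ht h1 h0
  calc g * g' = g * g' * g⁻¹ * g := by group
    _ = g' * g := by rw [h2]

theorem IsMax.im_le_fx {g g' : V ≃ₗ[ZMod p] V} (hg : IsMax H g) (hg' : IsMax H g')
    (hc : g * g' = g' * g) (hne : g' ≠ g) : im g' ≤ fx g := by
  intro t ht
  rw [mem_fx]
  by_contra h
  obtain ⟨b, hb⟩ := mem_im.1 ht
  have h1 : g t ∈ im g' := by
    have := im_conj g g' ht
    rwa [hc, mul_assoc, mul_inv_cancel, mul_one] at this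
  exact hne (hg.eq_of_im hT hg' (sub_mem_im g t) (sub_mem h1 ht) (sub_ne_zero.2 h))

theorem IsMax.im_le_fx_symm {g g' : V ≃ₗ[ZMod p] V} (hg : IsMax H g) (hg' : IsMax H g') {t : V}
    (ht : t ∈ im g') (hf : t ∈ fx g) (h0 : t ≠ 0) (hne : g' ≠ g) : im g ≤ fx g' ∧ im g' ≤ fx g :=
  have hc := hg.commute_of_mem hT hg' ht hf h0
  ⟨hg'.im_le_fx hT hg hc.symm hne.symm, hg.im_le_fx hT hg' hc hne⟩

theorem IsMax.disjoint_im {g g' : V ≃ₗ[ZMod p] V} (hg : IsMax H g) (hg' : IsMax H g')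
    (hne : g' ≠ g) {t : V} (ht : t ∈ im g) (ht' : t ∈ im g') : t = 0 := by
  by_contra h
  exact hne (hg.eq_of_im hT hg' ht ht' h)

end Cfsg.Agent.H13.Binary
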