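import Cfsg.Agent.H13.Binary.ThirdOdd

/-!
An irreducible group with the translation property has a single block: one reflection negating
everything, or one plane.
-/

set_option autoImplicit false
set_option linter.unusedSectionVars false
set_option linter.style.haveILetI false

namespace Cfsg.Agent.H13.Binary

open Module

variable {p : ℕ} [Fact p.Prime] {V : Type*} [AddCommGroup V] [Module (ZMod p) V] [Finite V]
  {H : Subgroup (V ≃ₗ[ZMod p] V)}

omit [Finite V] in
/-- No nonzero proper subspace is invariant. -/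
def Irred (H : Subgroup (V ≃ₗ[ZMod p] V)) : Prop :=
  ∀ W : Submodule (ZMod p) V, (∀ h ∈ H, ∀ v ∈ W, h v ∈ W) → W = ⊥ ∨ W = ⊤

variable (hT : Trans H)
include hT

/-- Two blocks cannot be exchanged. -/
theorem no_swap {a a' σ : V ≃ₗ[ZMod p] V} (ha : IsMax H a) (ha' : IsMax H a') (hσ : σ ∈ H)
    (hcomm : a * a' = a' * a) (hne : a' ≠ a) {u v₁ v₂ : V} (hu0 : u ≠ 0) (hu : u ∈ im a)
    (hσu : σ u ∈ im a') (hv₁ : a v₁ = v₁ + u) (hv₁' : v₁ ∈ fx a') (hv₂ : a' v₂ = v₂ - σ u)
    (hv₂' : v₂ ∈ fx a) (hclass : ∀ e, IsMax H e → fx a ⊓ fx a' ≤ fx e → e = a ∨ e = a') : False := by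
  have hu₂f : σ u ∈ fx a := ha.im_le_fx hT ha' hcomm hne hσu
  have hu₁f : u ∈ fx a' := ha'.im_le_fx hT ha hcomm.symm hne.symm hu
  obtain ⟨w, hwH, hw⟩ := hT.witness (u - σ u)
  have hb₁ : w (-u) = -u + (u - σ u) := hw σ hσ _ (by rw [map_neg]; abel)
  have haa : (a * a') (v₁ + v₂) = v₁ + v₂ + (u - σ u) := by
    rw [mul_apply, map_add a', mem_fx.1 hv₁', hv₂, map_add, map_sub, hv₁, mem_fx.1 hv₂',
      mem_fx.1 hu₂f]
    abel
  have hb₂ := hw _ (mul_mem ha.mem ha'.mem) _ haa
  have hne0 : u - σ u ≠ 0 := fun e =>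
    hu0 (ha.disjoint_im hT ha' hne hu (sub_eq_zero.1 e ▸ hσu))
  have hw1 : w ≠ 1 := fun e => hne0 (by simpa [e, one_apply] using hb₁)
  obtain ⟨e, he, hle⟩ := exists_isMax w hwH hw1
  have hinter : fx a ⊓ fx a' ≤ fx w := fun z hz => by
    have h2 := hw _ (mul_mem ha.mem ha'.mem) (v₁ + v₂ + z) (by
      rw [map_add, haa, mul_apply, mem_fx.1 hz.2, mem_fx.1 hz.1]; abel)
    rw [map_add, hb₂] at h2
    rw [mem_fx]
    calc w z = (v₁ + v₂ + (u - σ u) + w z) - (v₁ + v₂ + (u - σ u)) := by abel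
      _ = (v₁ + v₂ + z + (u - σ u)) - (v₁ + v₂ + (u - σ u)) := by rw [h2]
      _ = z := by abel
  have hd : -u - (v₁ + v₂) ∈ fx w := mem_fx.2 (by rw [map_sub, hb₁, hb₂]; abel)
  have hd' := hle hd
  rcases hclass e he (hinter.trans hle) with he' | he' <;> subst he'
  · rw [mem_fx, map_sub, map_neg, map_add, ha.apply_im hT hu, hv₁, mem_fx.1 hv₂'] at hd'
    refine hu0 ?_
    calc u = (- -u - (v₁ + u + v₂)) - (-u - (v₁ + v₂)) := by abel
      _ = 0 := by rw [hd', sub_self]
  · rw [mem_fx, map_sub, map_neg, map_add, mem_fx.1 hu₁f, mem_fx.1 hv₁', hv₂] at hd'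
    have h0 : σ u = 0 := by
      calc σ u = (-u - (v₁ + (v₂ - σ u))) - (-u - (v₁ + v₂)) := by abel
        _ = 0 := by rw [hd', sub_self]
    exact hu0 (by rwa [LinearEquiv.map_eq_zero_iff] at h0)

theorem eq_top_of_blocks {a a' : V ≃ₗ[ZMod p] V} {W W' M : Submodule (ZMod p) V}
    (hW : ∀ t ∈ im a, ∃ v ∈ W, a v = v + t) (hW' : ∀ t ∈ im a', ∃ v ∈ W', a' v = v + t)
    (hW'a : W' ≤ fx a) (h1 : W ≤ M) (h2 : W' ≤ M) (h3 : fx a ⊓ fx a' ≤ M) : M = ⊤ := by
  refine top_le_iff.1 fun z _ => ?_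
  obtain ⟨v, hv, hv1⟩ := hW _ (sub_mem_im a z)
  obtain ⟨v', hv', hv1'⟩ := hW' _ (sub_mem_im a' (z - v))
  have hf : z - v - v' ∈ fx a ⊓ fx a' := by
    refine ⟨mem_fx.2 ?_, mem_fx.2 ?_⟩
    · rw [map_sub, mem_fx.1 (hW'a hv'), map_sub, hv1]; abel
    · rw [map_sub, hv1']; abel
  rw [show z = v + v' + (z - v - v') by abel]
  exact add_mem (add_mem (h1 hv) (h2 hv')) (h3 hf)

theorem IsPair.exists_preimage {e f : V ≃ₗ[ZMod p] V} (h : IsPair H e f) {t : V} (ht : t ∈ im e) :
    ∃ v ∈ im f, e v = v + t := by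
  haveI : Module.Finite (ZMod p) V := Module.Finite.of_finite
  let F : im f →ₗ[ZMod p] im e :=
    ((e.toLinearMap - LinearMap.id).comp (im f).subtype).codRestrict (im e) fun v => sub_mem_im e v
  have hF : Function.Injective F := by
    rw [← LinearMap.ker_eq_bot, LinearMap.ker_eq_bot']
    intro v hv
    exact Subtype.ext ((Submodule.eq_bot_iff _).1 (h.fst.inf_eq_bot hT h.snd h.ne_comm) v
      ⟨v.2, mem_fx.2 (sub_eq_zero.1 (congrArg Subtype.val hv))⟩)
  obtain ⟨v, hv⟩ := (LinearMap.injective_iff_surjective_of_finrank_eq_finrank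
    (h.fst.finrank_im_eq hT h.snd h.ne_comm).symm).1 hF ⟨t, ht⟩
  have h1 : e (v : V) - v = t := congrArg Subtype.val hv
  exact ⟨v, v.2, by rw [← h1]; abel⟩

theorem InPlane.exists_partner {a b e : V ≃ₗ[ZMod p] V} (he : InPlane H a b e) (h : IsPair H a b) :
    ∃ f, InPlane H a b f ∧ IsPair H e f := by
  by_cases ha : e * a = a * e
  · exact ⟨b, InPlane.right hT h, he.max, h.snd, fun hb => he.ne_comm hT h ha.symm hb.symm⟩
  · exact ⟨a, InPlane.left hT h, he.max, h.fst, ha⟩

/-- With a non-commuting pair the span is everything. -/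
theorem IsPair.span_eq_top (hI : Irred H) {a b : V ≃ₗ[ZMod p] V} (h : IsPair H a b) :
    span a b = ⊤ := by
  haveI : Module.Finite (ZMod p) V := Module.Finite.of_finite
  refine (hI (span a b) ?_).resolve_left fun e0 => ?_
  swap
  · obtain ⟨t, ht, ht0⟩ := h.fst.exists_im_ne_zero
    exact ht0 ((Submodule.eq_bot_iff _).1 e0 t (Submodule.mem_sup_left ht))
  intro σ hσ v hv
  by_contra hout
  have hv0 : v ≠ 0 := fun e => hout (by rw [e, map_zero]; exact zero_mem _)
  obtain ⟨e, he, hve⟩ := h.cover hT hv hv0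
  obtain ⟨f, hf, hef⟩ := he.exists_partner hT h
  set e' := σ * e * σ⁻¹ with he'd
  set f' := σ * f * σ⁻¹ with hf'd
  have hσv : σ v ∈ im e' := im_conj σ e hve
  have hp' : IsPair H e' f' := by
    refine ⟨he.max.conj hσ, hf.max.conj hσ, fun hc => hef.ne_comm ?_⟩
    calc e * f = σ⁻¹ * (e' * f') * σ := by rw [he'd, hf'd]; group
      _ = σ⁻¹ * (f' * e') * σ := by rw [hc]
      _ = f * e := by rw [he'd, hf'd]; group
  have he'out : ¬ InPlane H a b e' := fun hh => hout (hh.im_le_span hT h hσv)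
  -- no element lies in both planes
  have hdis : ∀ g, InPlane H a b g → ¬ InPlane H e' f' g := by
    intro g hg1 hg2
    obtain ⟨k, hk, hgk⟩ := hg2.exists_partner hT hp'
    have hk1 : InPlane H a b k := by_contra fun hk1 =>
      hgk.ne_comm (h.commute_of_not_inPlane hT hk.max hk1 hg1).symm
    refine hout ?_
    rw [← hg1.span_eq hT hk1 h hgk, hg2.span_eq hT hk hp' hgk]
    exact Submodule.mem_sup_left hσv
  have hcomm : ∀ g g', InPlane H a b g → InPlane H e' f' g' → g * g' = g' * g := fun g g' hg hg' =>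
    (h.commute_of_not_inPlane hT hg'.max (fun hh => hdis g' hh hg') hg).symm
  have hX : ∀ g', InPlane H e' f' g' → span a b ≤ fx g' := fun g' hg' => sup_le
    (hg'.max.im_le_fx hT h.fst (hcomm a g' (InPlane.left hT h) hg').symm
      fun e => hdis g' (e ▸ InPlane.left hT h) hg')
    (hg'.max.im_le_fx hT h.snd (hcomm b g' (InPlane.right hT h) hg').symm
      fun e => hdis g' (e ▸ InPlane.right hT h) hg')
  have hX' : ∀ g, InPlane H a b g → span e' f' ≤ fx g := fun g hg => sup_le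
    (hg.max.im_le_fx hT hp'.fst (hcomm g e' hg (InPlane.left hT hp'))
      fun e => hdis g hg (e ▸ InPlane.left hT hp'))
    (hg.max.im_le_fx hT hp'.snd (hcomm g f' hg (InPlane.right hT hp'))
      fun e => hdis g hg (e ▸ InPlane.right hT hp'))
  obtain ⟨v₁, hv₁, hv₁e⟩ := hef.exists_preimage hT hve
  have hW : ∀ t ∈ im e, ∃ w ∈ span a b, e w = w + t := fun t ht => by
    obtain ⟨w, hw, hw'⟩ := hef.exists_preimage hT ht
    exact ⟨w, hf.im_le_span hT h hw, hw'⟩
  have hW' : ∀ t ∈ im e', ∃ w ∈ span e' f', e' w = w + t := fun t ht => by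
    obtain ⟨w, hw, hw'⟩ := hp'.exists_preimage hT ht
    exact ⟨w, Submodule.mem_sup_right hw, hw'⟩
  refine no_swap hT he.max hp'.fst hσ (hcomm e e' he (InPlane.left hT hp'))
    (fun e1 => he'out (e1 ▸ he)) hv0 hve hσv hv₁e (hX e' (InPlane.left hT hp')
      (hf.im_le_span hT h hv₁)) (v₂ := -σ v₁) ?_ ?_ ?_
  · rw [map_neg, he'd, mul_apply, mul_apply, inv_apply_apply, hv₁e, map_add]; abel
  · exact neg_mem (hX' e he (Submodule.mem_sup_right (im_conj σ f hv₁)))
  intro g hg hle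
  -- the member with the same trace on one plane
  have one : ∀ (a b e e' : V ≃ₗ[ZMod p] V), IsPair H a b → InPlane H a b e → InPlane H a b g →
      span a b ≤ fx e' → fx e ⊓ fx e' ≤ fx g → g = e := by
    intro a b e e' h he hg' hX hle
    have hle' : fx e ⊓ span a b ≤ fx g := fun z hz => hle ⟨hz.1, hX hz.2⟩
    by_cases hp : p = 2
    · obtain ⟨t, ht, ht0⟩ := he.max.exists_im_ne_zero
      exact he.eq_of_comm hT hp hg' h (hg'.max.commute_of_mem hT he.max ht
        (hle' ⟨he.max.im_le_fx_self hT hp ht, he.im_le_span hT h ht⟩) ht0).symm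
    · have hne : fx e ⊓ span a b ≠ ⊥ := fun e0 => by
        have h1 := Submodule.finrank_sup_add_finrank_inf_eq (fx e) (span a b)
        rw [e0, finrank_bot] at h1
        have h2 := Submodule.finrank_le (fx e ⊔ span a b)
        have h3 := (h.finrank_span hT).1
        have h4 := finrank_fx_add_im (p := p) e
        have h5 := he.finrank_im hT h
        obtain ⟨t, ht, ht0⟩ := h.fst.exists_im_ne_zero
        have : 0 < finrank (ZMod p) (im a) := Submodule.one_le_finrank_iff.2 fun e => ht0 (by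
          rw [e] at ht; exact (Submodule.mem_bot _).1 ht)
        omega
      obtain ⟨z, hz, hz0⟩ := (Submodule.ne_bot_iff _).1 hne
      exact he.eq_of_fx hT hp hg' h hz.1 (hle' hz)
        fun hc => hz0 ((Submodule.eq_bot_iff _).1 (h.span_inf_axis hT) z ⟨hz.2, hc⟩)
  by_cases hg1 : InPlane H a b g
  · exact Or.inl (one a b e e' h he hg1 (hX e' (InPlane.left hT hp')) hle)
  by_cases hg2 : InPlane H e' f' g
  · exact Or.inr (one e' f' e' e hp' (InPlane.left hT hp') hg2 (hX' e he) (by rw [inf_comm]; exact hle))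
  refine absurd ?_ hg.fx_ne_top
  have hXg : span a b ≤ fx g := sup_le
    (hg.im_le_fx hT h.fst (h.commute_of_not_inPlane hT hg hg1 (InPlane.left hT h))
      fun e => hg1 (e ▸ InPlane.left hT h))
    (hg.im_le_fx hT h.snd (h.commute_of_not_inPlane hT hg hg1 (InPlane.right hT h))
      fun e => hg1 (e ▸ InPlane.right hT h))
  have hX'g : span e' f' ≤ fx g := sup_le
    (hg.im_le_fx hT hp'.fst (hp'.commute_of_not_inPlane hT hg hg2 (InPlane.left hT hp'))
      fun e => hg2 (e ▸ InPlane.left hT hp'))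
    (hg.im_le_fx hT hp'.snd (hp'.commute_of_not_inPlane hT hg hg2 (InPlane.right hT hp'))
      fun e => hg2 (e ▸ InPlane.right hT hp'))
  exact eq_top_of_blocks hT hW hW' (hX' e he) hXg hX'g hle

/-- If all maximal elements commute, one of them is minus the identity and is the only nontrivial
element. -/
theorem eq_neg_of_commute (hI : Irred H)
    (hcomm : ∀ a b, IsMax H a → IsMax H b → a * b = b * a) {a : V ≃ₗ[ZMod p] V} (ha : IsMax H a) :
    (∀ v, a v = -v) ∧ ∀ h ∈ H, h ≠ 1 → h = a := by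
  haveI : Module.Finite (ZMod p) V := Module.Finite.of_finite
  have hp : p ≠ 2 := by
    intro hp
    let W : Submodule (ZMod p) V := ⨆ (e : V ≃ₗ[ZMod p] V) (_ : IsMax H e), im e
    have hWinv : ∀ h ∈ H, ∀ v ∈ W, h v ∈ W := by
      intro h hh
      suffices W ≤ W.comap h.toLinearMap from fun v hv => this hv
      refine iSup₂_le fun e he t ht => ?_
      exact le_iSup₂ (f := fun e (_ : IsMax H e) => im e) (h * e * h⁻¹) (he.conj hh) (im_conj h e ht)
    have hWle : W ≤ fx a := iSup₂_le fun e he => by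
      rcases eq_or_ne e a with rfl | hne
      · exact he.im_le_fx_self hT hp
      · exact ha.im_le_fx hT he (hcomm a e ha he) hne
    rcases hI W hWinv with h0 | h0
    · obtain ⟨t, ht, ht0⟩ := ha.exists_im_ne_zero
      exact ht0 ((Submodule.eq_bot_iff _).1 h0 t
        (le_iSup₂ (f := fun e (_ : IsMax H e) => im e) a ha ht))
    · exact ha.fx_ne_top (top_le_iff.1 (h0 ▸ hWle))
  have htop : im a = ⊤ := by
    refine (hI (im a) ?_).resolve_left fun e0 => ?_
    swap
    · obtain ⟨t, ht, ht0⟩ := ha.exists_im_ne_zero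
      exact ht0 ((Submodule.eq_bot_iff _).1 e0 t ht)
    intro σ hσ v hv
    by_contra hout
    have ha' := ha.conj hσ
    have hne : σ * a * σ⁻¹ ≠ a := fun e => hout (e ▸ im_conj σ a hv)
    have hc := hcomm a _ ha ha'
    have hv0 : v ≠ 0 := fun e => hout (by rw [e, map_zero]; exact zero_mem _)
    have hhalf : ∀ (e : V ≃ₗ[ZMod p] V), IsMax H e → ∀ t ∈ im e, ∃ w ∈ im e, e w = w + t := by
      intro e he t ht
      let F : im e →ₗ[ZMod p] im e :=
        ((e.toLinearMap - LinearMap.id).comp (im e).subtype).codRestrict (im e) fun w => sub_mem_im e w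
      have hF : Function.Injective F := by
        rw [← LinearMap.ker_eq_bot, LinearMap.ker_eq_bot']
        intro w hw
        exact Subtype.ext ((Submodule.eq_bot_iff _).1 (he.fx_inf_im hT hp) w
          ⟨mem_fx.2 (sub_eq_zero.1 (congrArg Subtype.val hw)), w.2⟩)
      obtain ⟨w, hw⟩ := (Finite.injective_iff_surjective.1 hF) ⟨t, ht⟩
      have h1 : e (w : V) - w = t := congrArg Subtype.val hw
      exact ⟨w, w.2, by rw [← h1]; abel⟩
    obtain ⟨v₁, hv₁, hv₁a⟩ := hhalf a ha v hv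
    refine no_swap hT ha ha' hσ hc hne hv0 hv (im_conj σ a hv) hv₁a
      (ha'.im_le_fx hT ha hc.symm hne.symm hv₁) (v₂ := -σ v₁) ?_ ?_ ?_
    · rw [map_neg, mul_apply, mul_apply, inv_apply_apply, hv₁a, map_add]; abel
    · exact neg_mem (ha.im_le_fx hT ha' hc hne (im_conj σ a hv₁))
    intro g hg hle
    by_cases hga : g = a
    · exact Or.inl hga
    by_cases hga' : g = σ * a * σ⁻¹
    · exact Or.inr hga'
    refine absurd ?_ hg.fx_ne_top
    exact eq_top_of_blocks hT (hhalf a ha) (hhalf _ ha') (ha.im_le_fx hT ha' hc hne)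
      (hg.im_le_fx hT ha (hcomm g a hg ha) (Ne.symm hga))
      (hg.im_le_fx hT ha' (hcomm g _ hg ha') (Ne.symm hga')) hle
  refine ⟨fun v => ha.apply_im hT (htop ▸ Submodule.mem_top), fun h hh h1 => ?_⟩
  obtain ⟨g, hg, hle⟩ := exists_isMax h hh h1
  have hga : g = a := by
    by_contra hne
    obtain ⟨t, ht, ht0⟩ := hg.exists_im_ne_zero
    exact hne (ha.eq_of_im hT hg (htop ▸ Submodule.mem_top) ht ht0)
  subst hga
  refine LinearEquiv.ext fun v => ?_
  by_cases hv : h v = v
  · rw [hv, mem_fx.1 (hle (mem_fx.2 hv))]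
  · exact (hg.agree hT hh (htop ▸ Submodule.mem_top) hv).symm

end Cfsg.Agent.H13.Binary
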