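import Cfsg.Agent.H13.Binary.Pair

/-!
The plane of a non-commuting pair: every nonzero vector of the span is a displacement of exactly one
maximal element fixing the axis, and these displacement spaces lie in the span.
-/

set_option autoImplicit false
set_option linter.unusedSectionVars false
set_option linter.style.haveILetI false

namespace Cfsg.Agent.H13.Binary

open Module

variable {p : ℕ} [Fact p.Prime] {V : Type*} [AddCommGroup V] [Module (ZMod p) V] [Finite V]
  {H : Subgroup (V ≃ₗ[ZMod p] V)}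

theorem IsMax.fx_ne_top {g : V ≃ₗ[ZMod p] V} (hg : IsMax H g) : fx g ≠ ⊤ := by
  intro e
  obtain ⟨v, hv⟩ := Binary.fx_ne_top hg.ne_one
  exact hv (mem_fx.1 (e ▸ Submodule.mem_top))

theorem IsMax.exists_im_ne_zero {g : V ≃ₗ[ZMod p] V} (hg : IsMax H g) : ∃ t ∈ im g, t ≠ 0 := by
  obtain ⟨v, hv⟩ := Binary.fx_ne_top hg.ne_one
  exact ⟨_, sub_mem_im g v, sub_ne_zero.2 hv⟩

theorem isMax_of_fx_eq {g h : V ≃ₗ[ZMod p] V} (hg : IsMax H g) (hh : h ∈ H) (h1 : h ≠ 1)
    (he : fx h = fx g) : IsMax H h :=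
  ⟨hh, h1, fun k hk hk1 hle => by rw [he] at hle ⊢; exact hg.eq_of_le k hk hk1 hle⟩

/-- The members of the plane of a pair. -/
structure InPlane (H : Subgroup (V ≃ₗ[ZMod p] V)) (a b e : V ≃ₗ[ZMod p] V) : Prop where
  max : IsMax H e
  le : axis a b ≤ fx e

variable (hT : Trans H)
include hT

theorem IsMax.fx_inf_im (hp : p ≠ 2) {g : V ≃ₗ[ZMod p] V} (hg : IsMax H g) : fx g ⊓ im g = ⊥ :=
  (Submodule.eq_bot_iff _).2 fun _ ⟨h1, h2⟩ =>
    eq_zero_of_neg_eq hp ((hg.apply_im hT h2).symm.trans (mem_fx.1 h1))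

theorem IsMax.im_le_fx_self (hp : p = 2) {g : V ≃ₗ[ZMod p] V} (hg : IsMax H g) : im g ≤ fx g :=
  fun t ht => mem_fx.2 ((hg.apply_im hT ht).trans (neg_eq hp t))

theorem InPlane.left {a b : V ≃ₗ[ZMod p] V} (h : IsPair H a b) : InPlane H a b a :=
  ⟨h.fst, inf_le_left⟩

theorem InPlane.right {a b : V ≃ₗ[ZMod p] V} (h : IsPair H a b) : InPlane H a b b :=
  ⟨h.snd, inf_le_right⟩

/-- A member of the plane does not commute with both generators. -/
theorem InPlane.ne_comm {a b e : V ≃ₗ[ZMod p] V} (he : InPlane H a b e) (h : IsPair H a b)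
    (ha : a * e = e * a) (hb : b * e = e * b) : False := by
  rcases eq_or_ne e a with rfl | hea
  · exact h.ne_comm hb.symm
  rcases eq_or_ne e b with rfl | heb
  · exact h.ne_comm ha
  refine he.max.fx_ne_top (top_le_iff.1 ?_)
  rw [← h.sup_axis hT]
  exact sup_le (sup_le (he.max.im_le_fx hT h.fst ha.symm hea.symm)
    (he.max.im_le_fx hT h.snd hb.symm heb.symm)) he.le

theorem InPlane.finrank_im {a b e : V ≃ₗ[ZMod p] V} (he : InPlane H a b e) (h : IsPair H a b) :
    finrank (ZMod p) (im e) = finrank (ZMod p) (im a) := by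
  by_cases ha : a * e = e * a
  · rw [← h.snd.finrank_im_eq hT he.max (fun hb => he.ne_comm hT h ha hb),
      h.fst.finrank_im_eq hT h.snd h.ne_comm]
  · exact (h.fst.finrank_im_eq hT he.max ha).symm

theorem InPlane.eq_zero_of_mem {a b e : V ≃ₗ[ZMod p] V} (he : InPlane H a b e) (h : IsPair H a b)
    {t : V} (ht : t ∈ im e) (hc : t ∈ axis a b) : t = 0 := by
  by_contra h0
  exact he.ne_comm hT h (h.fst.commute_of_mem hT he.max ht hc.1 h0)
    (h.snd.commute_of_mem hT he.max ht hc.2 h0)

theorem InPlane.finrank_fx {a b e : V ≃ₗ[ZMod p] V} (he : InPlane H a b e) (h : IsPair H a b) :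
    finrank (ZMod p) (fx e) = finrank (ZMod p) (axis a b) + finrank (ZMod p) (im a) := by
  have h1 := finrank_fx_add_im (p := p) e
  have h2 := he.finrank_im hT h
  have h3 := h.finrank_span hT
  omega

theorem InPlane.fx_eq_sup (hp : p = 2) {a b e : V ≃ₗ[ZMod p] V} (he : InPlane H a b e)
    (h : IsPair H a b) : axis a b ⊔ im e = fx e := by
  haveI : Module.Finite (ZMod p) V := Module.Finite.of_finite
  refine Submodule.eq_of_le_of_finrank_eq (sup_le he.le (he.max.im_le_fx_self hT hp)) ?_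
  have h1 := Submodule.finrank_sup_add_finrank_inf_eq (axis a b) (im e)
  rw [show axis a b ⊓ im e = ⊥ from
    (Submodule.eq_bot_iff _).2 fun t ⟨hc, ht⟩ => he.eq_zero_of_mem hT h ht hc, finrank_bot] at h1
  have h2 := he.finrank_im hT h
  have h3 := he.finrank_fx hT h
  omega

/-- Two non-commuting members have the axis of the plane as common fixed space. -/
theorem InPlane.axis_eq {a b e f : V ≃ₗ[ZMod p] V} (he : InPlane H a b e) (hf : InPlane H a b f)
    (h : IsPair H a b) (h' : IsPair H e f) : axis e f = axis a b := by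
  haveI : Module.Finite (ZMod p) V := Module.Finite.of_finite
  refine (Submodule.eq_of_le_of_finrank_eq (le_inf he.le hf.le) ?_).symm
  have h1 := h.finrank_span hT
  have h2 := h'.finrank_span hT
  have h3 := he.finrank_im hT h
  unfold axis at *
  omega

/-- In odd characteristic, a fixed vector outside the axis determines the member. -/
theorem InPlane.eq_of_fx (hp : p ≠ 2) {a b e f : V ≃ₗ[ZMod p] V} (he : InPlane H a b e)
    (hf : InPlane H a b f) (h : IsPair H a b) {z : V} (hze : z ∈ fx e) (hzf : z ∈ fx f)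
    (hz : z ∉ axis a b) : f = e := by
  haveI : Module.Finite (ZMod p) V := Module.Finite.of_finite
  by_contra hne
  by_cases hc : e * f = f * e
  · refine hz ((Submodule.eq_of_le_of_finrank_le (le_inf he.le hf.le) ?_).ge ⟨hze, hzf⟩)
    have hd : im f ⊓ (fx e ⊓ fx f) = ⊥ := (Submodule.eq_bot_iff _).2 fun t ⟨h1, _, h2⟩ =>
      (Submodule.eq_bot_iff _).1 (hf.max.fx_inf_im hT hp) t ⟨h2, h1⟩
    have h1 := Submodule.finrank_sup_add_finrank_inf_eq (im f) (fx e ⊓ fx f)
    rw [hd, finrank_bot] at h1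
    have h2 := Submodule.finrank_mono
      (sup_le (he.max.im_le_fx hT hf.max hc hne) inf_le_left : im f ⊔ (fx e ⊓ fx f) ≤ fx e)
    have h3 := hf.finrank_im hT h
    have h4 := he.finrank_fx hT h
    omega
  · exact hz ((he.axis_eq hT hf h ⟨he.max, hf.max, hc⟩).le ⟨hze, hzf⟩)

/-- An element fixing more than the axis is maximal. -/
theorem IsPair.isMax_of_fix {a b h : V ≃ₗ[ZMod p] V} (hab : IsPair H a b) (hh : h ∈ H) (h1 : h ≠ 1)
    (hle : axis a b ≤ fx h) {z : V} (hz : z ∈ fx h) (hzc : z ∉ axis a b) : IsMax H h := by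
  obtain ⟨g, hg, hgle⟩ := exists_isMax h hh h1
  have hgP : InPlane H a b g := ⟨hg, hle.trans hgle⟩
  have hconjP : InPlane H a b (h * g * h⁻¹) := ⟨hg.conj hh, fun c hc => (fx_conj h g).2 (by
    rw [show h⁻¹ c = c by conv_lhs => rw [← mem_fx.1 (hle hc), inv_apply_apply]]
    exact hgP.le hc)⟩
  by_cases hp : p = 2
  · obtain ⟨c, hc, t, ht, hct⟩ := Submodule.mem_sup.1 ((hgP.fx_eq_sup hT hp hab).ge (hgle hz))
    have ht0 : t ≠ 0 := by
      rintro rfl
      rw [add_zero] at hct
      exact hzc (hct ▸ hc)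
    have hht : h t = t := by
      rw [← hct] at hz
      have := mem_fx.1 hz
      rw [map_add, mem_fx.1 (hle hc)] at this
      exact add_left_cancel this
    have h2 := im_conj h g ht
    rw [hht] at h2
    have h3 := hg.eq_of_im hT (hg.conj hh) ht h2 ht0
    have hcomm : g * h = h * g := by
      calc g * h = h * g * h⁻¹ * h := by rw [h3]
        _ = h * g := by group
    have hle' : fx g ≤ fx h := by
      rw [← hgP.fx_eq_sup hT hp hab]
      exact sup_le hle fun u hu => mem_fx.2 (hg.fixes_im_of_commute hT hp hh hcomm hu)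
    exact isMax_of_fx_eq hg hh h1 (hg.eq_of_le h hh h1 hle')
  · have key : ∀ k ∈ H, axis a b ≤ fx k → z ∈ fx k → im g ≤ fx k → k = 1 := by
      intro k hk hk1 hk2 hk3
      by_contra hne
      obtain ⟨g3, hg3, hle3⟩ := exists_isMax k hk hne
      have h3 : g3 = g := hgP.eq_of_fx hT hp ⟨hg3, hk1.trans hle3⟩ hab (hgle hz) (hle3 hk2) hzc
      obtain ⟨t, ht, ht0⟩ := hg.exists_im_ne_zero
      exact ht0 ((Submodule.eq_bot_iff _).1 (hg.fx_inf_im hT hp) t ⟨h3 ▸ hle3 (hk3 ht), ht⟩)
    have h3 : h * g * h⁻¹ = g := hgP.eq_of_fx hT hp hconjP hab (hgle hz)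
      ((fx_conj h g).2 (by
        rw [show h⁻¹ z = z by conv_lhs => rw [← mem_fx.1 hz, inv_apply_apply]]
        exact hgle hz)) hzc
    have hcomm : g * h = h * g := by
      calc g * h = h * g * h⁻¹ * h := by rw [h3]
        _ = h * g := by group
    obtain ⟨s, hs, hs'⟩ : ∃ s ∈ im g, h s ≠ s := by
      by_contra hc
      push Not at hc
      exact h1 (key h hh hle hz fun s hs => mem_fx.2 (hc s hs))
    have hneg : ∀ t ∈ im g, h t = -t := fun t ht => by
      rcases hg.apply_im_of_commute hT hh hcomm ht with h' | h'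
      swap
      · exact h'
      have hs2 := (hg.apply_im_of_commute hT hh hcomm hs).resolve_left hs'
      rcases hg.apply_im_of_commute hT hh hcomm (add_mem hs ht) with e | e <;>
        rw [map_add, hs2, h'] at e
      · have : -s = s := add_right_cancel e
        exact absurd (eq_zero_of_neg_eq hp this) (fun hs0 => hs' (by rw [hs0, map_zero]))
      · rw [neg_add, add_left_cancel_iff] at e
        rw [h', eq_zero_of_neg_eq hp e.symm, neg_zero]
    have h4 : h * g = 1 := key (h * g) (mul_mem hh hg.mem)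
      (fun c hc => mem_fx.2 (by rw [mul_apply, mem_fx.1 (hgP.le hc), mem_fx.1 (hle hc)]))
      (mem_fx.2 (by rw [mul_apply, mem_fx.1 (hgle hz), mem_fx.1 hz]))
      (fun t ht => mem_fx.2 (by rw [mul_apply, hg.apply_im hT ht, map_neg, hneg t ht, neg_neg]))
    rw [show h = g from (eq_inv_of_mul_eq_one_left h4).trans (hg.inv_eq hT)]
    exact hg

theorem IsPair.exists_displacement {a b : V ≃ₗ[ZMod p] V} (h : IsPair H a b) {x : V}
    (hx : x ∈ span a b) : ∃ v ∈ span a b, (a * b) v = v + x := by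
  let f : span a b →ₗ[ZMod p] span a b :=
    (((a * b).toLinearMap - LinearMap.id).comp (span a b).subtype).codRestrict (span a b)
      fun v => h.sub_mem_span hT v
  have hf : Function.Injective f := by
    rw [← LinearMap.ker_eq_bot, LinearMap.ker_eq_bot']
    intro v hv
    have h0 : (a * b) (v : V) = v := sub_eq_zero.1 (congrArg Subtype.val hv)
    exact Subtype.ext ((Submodule.eq_bot_iff _).1 (h.span_inf_axis hT) v ⟨v.2, h.fix_mul hT h0⟩)
  obtain ⟨v, hv⟩ := (Finite.injective_iff_surjective.1 hf) ⟨x, hx⟩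
  have h1 : (a * b) (v : V) - v = x := congrArg Subtype.val hv
  exact ⟨v, v.2, by rw [← h1]; abel⟩

/-- Every nonzero vector of the span is a displacement of a member of the plane. -/
theorem IsPair.cover {a b : V ≃ₗ[ZMod p] V} (h : IsPair H a b) {x : V}
    (hx : x ∈ span a b) (h0 : x ≠ 0) : ∃ e, InPlane H a b e ∧ x ∈ im e := by
  obtain ⟨v, hv, hv1⟩ := h.exists_displacement hT hx
  obtain ⟨v', hv', hv1'⟩ := h.symm.exists_displacement hT (x := x)
    (by rw [span, sup_comm]; exact hx)
  rw [show span b a = span a b from sup_comm _ _] at hv'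
  have hfix : ∀ c ∈ axis a b, (a * b) c = c := fun c hc => by
    rw [mul_apply, mem_fx.1 hc.2, mem_fx.1 hc.1]
  have hne : v - v' ∉ axis a b := fun hc => by
    have e0 : v - v' = 0 := (Submodule.eq_bot_iff _).1 (h.span_inf_axis hT) _ ⟨sub_mem hv hv', hc⟩
    rw [← sub_eq_zero.1 e0] at hv1'
    have h2 : (a * b) ((a * b) v) = v := by
      rw [show (a * b) v = (b * a) v by rw [hv1, hv1'], mul_apply, mul_apply,
        h.snd.apply_apply hT, h.fst.apply_apply hT]
    have h3 : v = 0 := (Submodule.eq_bot_iff _).1 (h.span_inf_axis hT) v ⟨hv, h.fix_mul_mul hT h2⟩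
    rw [h3, map_zero, zero_add] at hv1
    exact h0 hv1.symm
  obtain ⟨w, hwH, hw⟩ := hT.witness x
  have hwv := hw _ (mul_mem h.fst.mem h.snd.mem) v hv1
  have hwv' := hw _ (mul_mem h.snd.mem h.fst.mem) v' hv1'
  have hle : axis a b ≤ fx w := fun c hc => by
    have h2 := hw _ (mul_mem h.fst.mem h.snd.mem) (v + c) (by
      rw [map_add, hv1, hfix c hc]; abel)
    rw [map_add, hwv] at h2
    rw [mem_fx]
    calc w c = (v + x + w c) - (v + x) := by abel
      _ = (v + c + x) - (v + x) := by rw [h2]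
      _ = c := by abel
  have hw1 : w ≠ 1 := fun e => h0 (by simpa [e, one_apply] using hwv)
  refine ⟨w, ⟨h.isMax_of_fix hT hwH hw1 hle (z := v - v') ?_ hne, hle⟩, mem_im.2 ⟨v, hwv⟩⟩
  rw [mem_fx, map_sub, hwv, hwv']
  abel

/-- In characteristic two a maximal element is determined by its fixed space. -/
theorem IsPair.eq_of_fx_eq (hp : p = 2) {a b a' : V ≃ₗ[ZMod p] V} (h : IsPair H a b)
    (ha' : IsMax H a') (hfx : fx a' = fx a) : a' = a := by
  have hne : ∀ e, IsMax H e → fx e = fx a → ∀ f, IsMax H f → fx f = fx b → IsPair H e f := by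
    intro e he hea f hf hfb
    refine ⟨he, hf, fun hc => ?_⟩
    have h1 : im e ≤ fx b := by
      rw [← hfb]
      rcases eq_or_ne e f with rfl | hne
      · exact he.im_le_fx_self hT hp
      · exact hf.im_le_fx hT he hc.symm hne
    obtain ⟨t, ht, ht0⟩ := he.exists_im_ne_zero
    have hbe := h.snd.commute_of_mem hT he ht (h1 ht) ht0
    obtain ⟨t', ht', ht0'⟩ := h.snd.exists_im_ne_zero
    rcases eq_or_ne b e with rfl | hbne
    · exact h.ne_comm (h.fst.commute_of_mem hT h.snd ht' (hea ▸ h.snd.im_le_fx_self hT hp ht') ht0')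
    · exact h.ne_comm (h.fst.commute_of_mem hT h.snd ht'
        (hea ▸ he.im_le_fx hT h.snd hbe.symm hbne ht') ht0')
  have hP' : InPlane H a b a' := ⟨ha', hfx ▸ inf_le_left⟩
  obtain ⟨u, hu, hu0⟩ := h.fst.exists_im_ne_zero
  obtain ⟨c₀, hc₀, u', hu', hcu⟩ := Submodule.mem_sup.1
    ((hP'.fx_eq_sup hT hp h).ge (hfx ▸ h.fst.im_le_fx_self hT hp hu))
  by_contra hne'
  have hu'u : u' ≠ u := fun e => hu0 (h.fst.disjoint_im hT ha' hne' hu (e ▸ hu'))
  obtain ⟨s, hs, hs0⟩ := h.snd.exists_im_ne_zero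
  set S : Set V := {t | ∃ e, IsMax H e ∧ fx e = fx b ∧ t ∈ im e ∧ t - s ∈ axis a b} with hS
  set S' : Set V := {t | ∃ e, InPlane H a b e ∧ t ∈ im e ∧ t - (u + s) ∈ axis a b} with hS'
  have claim : ∀ a0 u0, IsMax H a0 → fx a0 = fx a → u0 ∈ im a0 → u0 - u ∈ axis a b → u0 ≠ 0 →
      ∀ t, u0 + t ∈ S' ↔ t ∈ S := by
    intro a0 u0 ha0 hfa hu0' huu hu00 t
    constructor
    · rintro ⟨e', he', ht', hcl⟩
      have hp0 : IsPair H a0 e' := by
        refine ⟨ha0, he'.max, fun hc => ?_⟩
        have hu1 : u0 ∈ fx e' := by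
          rcases eq_or_ne a0 e' with rfl | hh
          · exact ha0.im_le_fx_self hT hp hu0'
          · exact he'.max.im_le_fx hT ha0 hc.symm hh hu0'
        have hs1 : s ∈ fx e' := by
          have e1 : s = (u0 + t) - (u0 + t - (u + s)) - (u0 - (u0 - u)) := by abel
          rw [e1]
          exact sub_mem (sub_mem (he'.max.im_le_fx_self hT hp ht') (he'.le hcl))
            (sub_mem hu1 (he'.le huu))
        have hP0 : InPlane H a0 b e' := ⟨he'.max, by rw [axis, hfa]; exact he'.le⟩
        exact hP0.ne_comm hT (hne a0 ha0 hfa b h.snd rfl) hc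
          (he'.max.commute_of_mem hT h.snd hs hs1 hs0).symm
      have hax : axis a0 e' = axis a b :=
        InPlane.axis_eq hT ⟨ha0, hfa ▸ inf_le_left⟩ he' h hp0
      have htX : t ∈ span a0 e' := by
        rw [show t = (u0 + t) - u0 by abel]
        exact sub_mem (Submodule.mem_sup_right ht') (Submodule.mem_sup_left hu0')
      have htne : t ≠ 0 := by
        rintro rfl
        rw [add_zero] at ht'
        exact hu00 (ha0.disjoint_im hT he'.max hp0.ne hu0' ht')
      obtain ⟨e, he, hte⟩ := hp0.cover hT htX htne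
      have heP : InPlane H a b e := ⟨he.max, hax ▸ he.le⟩
      have hts : t - s ∈ axis a b := by
        rw [show t - s = (u0 + t - (u + s)) - (u0 - u) by abel]
        exact sub_mem hcl huu
      have hse : s ∈ fx e := by
        rw [show s = t - (t - s) by abel]
        exact sub_mem (he.max.im_le_fx_self hT hp hte) (heP.le hts)
      have hcb := he.max.commute_of_mem hT h.snd hs hse hs0
      refine ⟨e, he.max, ?_, hte, hts⟩
      rcases eq_or_ne b e with rfl | hbe
      · rfl
      · haveI : Module.Finite (ZMod p) V := Module.Finite.of_finite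
        refine (Submodule.eq_of_le_of_finrank_eq ?_ ?_).symm
        · rw [← (InPlane.right hT h).fx_eq_sup hT hp h]
          exact sup_le heP.le (he.max.im_le_fx hT h.snd hcb hbe)
        · rw [heP.finrank_fx hT h, (InPlane.right hT h).finrank_fx hT h]
    · rintro ⟨e, he, heb, hte, hts⟩
      have hp0 := hne a0 ha0 hfa e he heb
      have hax : axis a0 e = axis a b := by rw [axis, hfa, heb]; rfl
      have hy0 : u0 + t ≠ 0 := fun e0 => hu00 (ha0.disjoint_im hT he hp0.ne hu0' (by
        rw [eq_neg_of_add_eq_zero_left e0]; exact neg_mem hte))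
      obtain ⟨e', he', ht'⟩ := hp0.cover hT
        (add_mem (Submodule.mem_sup_left hu0') (Submodule.mem_sup_right hte) : u0 + t ∈ span a0 e) hy0
      refine ⟨e', ⟨he'.max, hax ▸ he'.le⟩, ht', ?_⟩
      rw [show u0 + t - (u + s) = (u0 - u) + (t - s) by abel]
      exact add_mem huu hts
  have hcu' : u' - u ∈ axis a b := by
    rw [← hcu, show u' - (c₀ + u') = -c₀ by abel]
    exact neg_mem hc₀
  have hu'0 : u' ≠ 0 := by
    rintro rfl
    exact hu0 ((InPlane.left hT h).eq_zero_of_mem hT h hu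
      (by rw [← hcu, add_zero]; exact hc₀))
  have hA := claim a u h.fst rfl hu (by simp) hu0
  have hA' := claim a' u' ha' hfx hu' hcu' hu'0
  have hinv : ∀ t ∈ S, t + (u' - u) ∈ S := fun t ht => by
    rw [← hA]
    rw [show u + (t + (u' - u)) = u' + t by abel]
    exact (hA' t).2 ht
  haveI : Fintype S := Fintype.ofFinite _
  have heven : (Fintype.card S : ZMod 2) = 0 := by
    have h2 : ∀ y : V, y + y = 0 := fun y => by
      calc y + y = y + -y := by rw [neg_eq hp]
        _ = 0 := add_neg_cancel y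
    rw [← Finset.card_univ, Finset.cast_card]
    refine Finset.sum_involution (fun t _ => ⟨t.1 + (u' - u), hinv t.1 t.2⟩) (fun _ _ => rfl)
      (fun t _ _ e => hu'u (sub_eq_zero.1 (by simpa using congrArg Subtype.val e)))
      (fun _ _ => Finset.mem_univ _) (fun t _ => Subtype.ext (by
        show t.1 + (u' - u) + (u' - u) = t.1
        rw [add_assoc, h2, add_zero]))
  -- the elements with the fixed space of `b`, with the identity, form a group of even order
  haveI : Finite (V ≃ₗ[ZMod p] V) := Finite.of_injective _ DFunLike.coe_injective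
  let K : Subgroup (V ≃ₗ[ZMod p] V) :=
    { carrier := {k | k ∈ H ∧ fx b ≤ fx k}
      mul_mem' := fun {x y} hx hy => ⟨mul_mem hx.1 hy.1, fun z hz => mem_fx.2 (by
        rw [mul_apply, mem_fx.1 (hy.2 hz), mem_fx.1 (hx.2 hz)])⟩
      one_mem' := ⟨one_mem _, fun z _ => mem_fx.2 rfl⟩
      inv_mem' := fun {x} hx => ⟨inv_mem hx.1, fun z hz => mem_fx.2 (by
        conv_lhs => rw [← mem_fx.1 (hx.2 hz), inv_apply_apply])⟩ }
  have hK : 2 ∣ Nat.card K := by
    have h2 : orderOf (⟨b, h.snd.mem, le_rfl⟩ : K) = 2 := by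
      rw [← Subgroup.orderOf_coe]
      exact orderOf_eq_prime (by rw [pow_two]; exact h.snd.mul_self hT) h.snd.ne_one
    exact h2 ▸ orderOf_dvd_natCard _
  have hex : ∀ k : {k : K // k ≠ 1}, ∃ t : S, (t : V) ∈ im (k.1 : V ≃ₗ[ZMod p] V) := fun k => by
    have hk1 : (k.1 : V ≃ₗ[ZMod p] V) ≠ 1 := fun e => k.2 (Subtype.ext e)
    have hkx := h.snd.eq_of_le _ k.1.2.1 hk1 k.1.2.2
    have hkm := isMax_of_fx_eq h.snd k.1.2.1 hk1 hkx
    have hkP : InPlane H a b k.1 := ⟨hkm, hkx ▸ inf_le_right⟩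
    obtain ⟨c, hc, t, ht, hct⟩ := Submodule.mem_sup.1
      ((hkP.fx_eq_sup hT hp h).ge (hkx.symm ▸ h.snd.im_le_fx_self hT hp hs))
    exact ⟨⟨t, k.1, hkm, hkx, ht, by rw [← hct]; simpa using neg_mem hc⟩, ht⟩
  choose φ hφ using hex
  have hsS : ∀ t : S, (t : V) ≠ 0 := fun t e => by
    obtain ⟨-, -, -, -, hts⟩ := t.2
    rw [e, zero_sub] at hts
    exact hs0 ((InPlane.right hT h).eq_zero_of_mem hT h hs (by simpa using neg_mem hts))
  have hbij : Function.Bijective φ := by
    refine ⟨fun k k' e => ?_, fun t => ?_⟩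
    · have hk1 : (k.1 : V ≃ₗ[ZMod p] V) ≠ 1 := fun e => k.2 (Subtype.ext e)
      have hk1' : (k'.1 : V ≃ₗ[ZMod p] V) ≠ 1 := fun e => k'.2 (Subtype.ext e)
      have hkm := isMax_of_fx_eq h.snd k.1.2.1 hk1 (h.snd.eq_of_le _ k.1.2.1 hk1 k.1.2.2)
      have hkm' := isMax_of_fx_eq h.snd k'.1.2.1 hk1' (h.snd.eq_of_le _ k'.1.2.1 hk1' k'.1.2.2)
      exact Subtype.ext (Subtype.ext (hkm'.eq_of_im hT hkm (e ▸ hφ k') (hφ k) (hsS _)))
    · obtain ⟨e, he, hfe, hte, hts⟩ := t.2
      let k : {k : K // k ≠ 1} :=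
        ⟨⟨e, he.mem, hfe.ge⟩, fun e1 => he.ne_one (congrArg Subtype.val e1)⟩
      refine ⟨k, Subtype.ext (by_contra fun hne2 => ?_)⟩
      obtain ⟨-, -, -, -, hts'⟩ := (φ k).2
      have hd : (φ k : V) - t ∈ axis a b := by
        rw [show (φ k : V) - t = ((φ k : V) - s) - ((t : V) - s) by abel]
        exact sub_mem hts' hts
      exact hne2 (sub_eq_zero.1 (InPlane.eq_zero_of_mem hT ⟨he, hfe ▸ inf_le_right⟩ h
        (sub_mem (hφ k) hte) hd))
  haveI : Fintype K := Fintype.ofFinite _
  classical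
  have hcard : Fintype.card S = Fintype.card K - 1 := by
    rw [← Fintype.card_congr (Equiv.ofBijective φ hbij), Fintype.card_subtype_compl,
      Fintype.card_subtype_eq]
  rw [Nat.card_eq_fintype_card] at hK
  have hpos : 0 < Fintype.card K := Fintype.card_pos
  rw [ZMod.natCast_eq_zero_iff] at heven
  omega

/-- Every displacement of a member lies in the span. -/
theorem InPlane.im_le_span {a b e : V ≃ₗ[ZMod p] V} (he : InPlane H a b e) (h : IsPair H a b) :
    im e ≤ span a b := by
  intro t ht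
  obtain ⟨x, hx, c, hc, hxc⟩ := Submodule.mem_sup.1 ((h.sup_axis hT).ge (Submodule.mem_top : t ∈ ⊤))
  suffices c = 0 by rw [← hxc, this, add_zero]; exact hx
  by_cases hx0 : x = 0
  · rw [hx0, zero_add] at hxc
    subst hxc
    exact he.eq_zero_of_mem hT h ht hc
  obtain ⟨e₂, he₂, hx₂⟩ := h.cover hT hx hx0
  by_cases hee : e₂ = e
  · subst hee
    exact he.eq_zero_of_mem hT h (by
      rw [show c = t - x by rw [← hxc]; abel]
      exact sub_mem ht hx₂) hc
  by_cases hcm : e * e₂ = e₂ * e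
  · by_cases hp : p = 2
    · haveI : Module.Finite (ZMod p) V := Module.Finite.of_finite
      have hfx : fx e₂ = fx e := by
        refine Submodule.eq_of_le_of_finrank_eq ?_ (by rw [he₂.finrank_fx hT h, he.finrank_fx hT h])
        rw [← he₂.fx_eq_sup hT hp h]
        exact sup_le he.le (he.max.im_le_fx hT he₂.max hcm hee)
      by_cases hae : a * e = e * a
      · exact absurd ((IsPair.mk he.max h.snd (fun hb => he.ne_comm hT h hae hb.symm)).eq_of_fx_eq hT hp
          he₂.max hfx) hee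
      · exact absurd ((IsPair.mk he.max h.fst (Ne.symm hae)).eq_of_fx_eq hT hp he₂.max hfx) hee
    · have hfix : e t = t := by
        rw [← hxc, map_add, mem_fx.1 (he.max.im_le_fx hT he₂.max hcm hee hx₂), mem_fx.1 (he.le hc)]
      have h0 : t = 0 := eq_zero_of_neg_eq hp ((he.max.apply_im hT ht).symm.trans hfix)
      have h2 : c = -x := eq_neg_of_add_eq_zero_right (hxc.trans h0)
      exact (Submodule.eq_bot_iff _).1 (h.span_inf_axis hT) c ⟨h2 ▸ neg_mem hx, hc⟩
  · have hp2 : IsPair H e e₂ := ⟨he.max, he₂.max, hcm⟩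
    have hax := he.axis_eq hT he₂ h hp2
    refine (Submodule.eq_bot_iff _).1 (hp2.span_inf_axis hT) c ⟨?_, hax.ge hc⟩
    rw [show c = t - x by rw [← hxc]; abel]
    exact sub_mem (Submodule.mem_sup_left ht) (Submodule.mem_sup_right hx₂)

/-- The span is the same for any non-commuting pair of members. -/
theorem InPlane.span_eq {a b e f : V ≃ₗ[ZMod p] V} (he : InPlane H a b e) (hf : InPlane H a b f)
    (h : IsPair H a b) (h' : IsPair H e f) : span e f = span a b := by
  haveI : Module.Finite (ZMod p) V := Module.Finite.of_finite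
  refine Submodule.eq_of_le_of_finrank_eq (sup_le (he.im_le_span hT h) (hf.im_le_span hT h)) ?_
  rw [(h.finrank_span hT).1, (h'.finrank_span hT).1, he.finrank_im hT h]

/-- A maximal element with a displacement in the span is a member. -/
theorem IsPair.inPlane_of_mem {a b e : V ≃ₗ[ZMod p] V} (h : IsPair H a b) (he : IsMax H e) {x : V}
    (hxe : x ∈ im e) (hx : x ∈ span a b) (h0 : x ≠ 0) : InPlane H a b e := by
  obtain ⟨e', he', hx'⟩ := h.cover hT hx h0
  exact (he.eq_of_im hT he'.max hxe hx' h0) ▸ he'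

end Cfsg.Agent.H13.Binary
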