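import Cfsg.Agent.H13.Binary.Block

/-!
A plane with the translation property is a field extension of degree two with the semilinear maps of
norm one.
-/

set_option autoImplicit false
set_option linter.unusedSectionVars false
set_option linter.style.haveILetI false

namespace Cfsg.Agent.H13.Binary

open Module

theorem eq_two_mul_of_dvd {p d f : ℕ} (hp : 2 ≤ p) (hf : 0 < f) (hle : f ≤ 2 * d)
    (h : p ^ d + 1 ∣ p ^ f - 1) : f = 2 * d := by
  by_contra hne
  by_cases hfd : f ≤ d
  · have h1 : p ^ f ≤ p ^ d := Nat.pow_le_pow_right (by omega) hfd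
    have h2 : 2 ≤ p ^ f := hp.trans (Nat.le_self_pow hf.ne' p)
    have := Nat.le_of_dvd (by omega) h
    omega
  · have h1 : p ^ f = p ^ (f - d) * p ^ d := by rw [← pow_add, Nat.sub_add_cancel (by omega)]
    have h2 : p ^ d + 1 ∣ p ^ (f - d) * (p ^ d + 1) := Dvd.intro_left _ rfl
    have h3 := Nat.dvd_sub h2 h
    have hpos : 0 < p ^ f := Nat.pow_pos (by omega)
    have h4 : p ^ (f - d) * (p ^ d + 1) - (p ^ f - 1) = p ^ (f - d) + 1 := by
      rw [Nat.mul_add, mul_one, ← h1]; omega
    rw [h4] at h3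
    have h5 := Nat.le_of_dvd (by omega) h3
    have h6 : p ^ (f - d) < p ^ d := Nat.pow_lt_pow_right (by omega) (by omega)
    omega

variable {p : ℕ} [Fact p.Prime] {V : Type} [AddCommGroup V] [Module (ZMod p) V] [Finite V]
  {H : Subgroup (V ≃ₗ[ZMod p] V)}

variable (hT : Trans H) {a b : V ≃ₗ[ZMod p] V} (h : IsPair H a b) (htop : span a b = ⊤)
include hT h htop

theorem axis_eq_bot : axis a b = ⊥ := by
  have := h.span_inf_axis hT
  rwa [htop, top_inf_eq] at this

theorem inPlane_all {e : V ≃ₗ[ZMod p] V} (he : IsMax H e) : InPlane H a b e :=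
  ⟨he, by rw [axis_eq_bot hT h htop]; exact bot_le⟩

theorem max_or_fpf {g : V ≃ₗ[ZMod p] V} (hg : g ∈ H) (h1 : g ≠ 1) :
    IsMax H g ∨ ∀ v, g v = v → v = 0 := by
  refine or_iff_not_imp_right.2 fun hc => ?_
  push Not at hc
  obtain ⟨v, hv, hv0⟩ := hc
  refine h.isMax_of_fix hT hg h1 (by rw [axis_eq_bot hT h htop]; exact bot_le) (z := v)
    (mem_fx.2 hv) ?_
  rw [axis_eq_bot hT h htop]
  exact hv0

omit h htop in
theorem fpf_mul {x y : V ≃ₗ[ZMod p] V} (hab : IsPair H a b) (htop' : span a b = ⊤) (hx : IsMax H x)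
    (hy : IsMax H y) (hne : y ≠ x) {v : V} (hv : (x * y) v = v) : v = 0 := by
  rw [mul_apply] at hv
  have h1 : y v = x v := by conv_rhs => rw [← hv, hx.apply_apply hT]
  have h2 : x v = v := sub_eq_zero.1 (hx.disjoint_im hT hy hne (sub_mem_im x v)
    (by rw [← h1]; exact sub_mem_im y v))
  have hax := axis_eq_bot hT hab htop'
  haveI : Module.Finite (ZMod p) V := Module.Finite.of_finite
  by_cases hc : x * y = y * x
  · by_cases hp : p = 2
    · exact absurd ((inPlane_all hT hab htop' hx).eq_of_comm hT hp (inPlane_all hT hab htop' hy) hab hc)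
        hne
    · by_contra hv0
      refine hne ((inPlane_all hT hab htop' hx).eq_of_fx hT hp (inPlane_all hT hab htop' hy) hab
        (mem_fx.2 h2) (mem_fx.2 (h1.trans h2)) ?_)
      rw [hax]
      exact hv0
  · have := (inPlane_all hT hab htop' hx).axis_eq hT (inPlane_all hT hab htop' hy) hab ⟨hx, hy, hc⟩
    rw [hax] at this
    exact (Submodule.mem_bot _).1 (this.le ⟨mem_fx.2 h2, mem_fx.2 (h1.trans h2)⟩)

/-- The products of two maximal elements. -/
theorem exists_eq_mul {g : V ≃ₗ[ZMod p] V} (hg : g ∈ H) (h1 : g = 1 ∨ ∀ v, g v = v → v = 0) :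
    ∃ e, IsMax H e ∧ g = a * e := by
  rcases h1 with rfl | h1
  · exact ⟨a, h.fst, (h.fst.mul_self hT).symm⟩
  let F : V →ₗ[ZMod p] V := g.toLinearMap - LinearMap.id
  have hF : Function.Injective F := by
    rw [← LinearMap.ker_eq_bot, LinearMap.ker_eq_bot']
    exact fun v hv => h1 v (sub_eq_zero.1 hv)
  obtain ⟨t, ht, ht0⟩ := h.fst.exists_im_ne_zero
  obtain ⟨v, hv⟩ := (Finite.injective_iff_surjective.1 hF) t
  have hgv : g v - v = t := hv
  have hne : g v ≠ v := fun e => ht0 (by rw [← hgv, e, sub_self])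
  have hv0 : v ≠ 0 := fun e => hne (by rw [e, map_zero])
  have hav := h.fst.agree hT hg (hgv.symm ▸ ht) hne
  have hfix : (a * g) v = v := by rw [mul_apply, ← hav, h.fst.apply_apply hT]
  have hag : a * g ≠ 1 := fun e => by
    have hga : g = a := (eq_inv_of_mul_eq_one_right e).trans (h.fst.inv_eq hT)
    subst hga
    haveI : Module.Finite (ZMod p) V := Module.Finite.of_finite
    have h2 : fx g = ⊥ := (Submodule.eq_bot_iff _).2 fun z hz => h1 z (mem_fx.1 hz)
    have h3 := (InPlane.left hT h).finrank_fx hT h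
    rw [h2, finrank_bot] at h3
    have h4 : 0 < finrank (ZMod p) (im g) := Submodule.one_le_finrank_iff.2 fun e => ht0 (by
      rw [e] at ht; exact (Submodule.mem_bot _).1 ht)
    omega
  rcases max_or_fpf hT h htop (mul_mem h.fst.mem hg) hag with h2 | h2
  · exact ⟨a * g, h2, by rw [← mul_assoc, h.fst.mul_self hT, one_mul]⟩
  · exact absurd (h2 v hfix) hv0

/-- The rotations. -/
def rot : Subgroup (V ≃ₗ[ZMod p] V) where
  carrier := {g | ∃ e, IsMax H e ∧ g = a * e}
  one_mem' := ⟨a, h.fst, (h.fst.mul_self hT).symm⟩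
  mul_mem' := by
    rintro _ _ ⟨e₁, he₁, rfl⟩ ⟨e₂, he₂, rfl⟩
    have hx : IsMax H (a * e₁ * a⁻¹) := he₁.conj h.fst.mem
    rw [h.fst.inv_eq hT] at hx
    have heq : a * e₁ * (a * e₂) = a * e₁ * a * e₂ := (mul_assoc _ _ _).symm
    refine exists_eq_mul hT h htop (mul_mem (mul_mem h.fst.mem he₁.mem) (mul_mem h.fst.mem he₂.mem)) ?_
    by_cases hne : e₂ = a * e₁ * a
    · subst hne
      left
      rw [heq, hx.mul_self hT]
    · exact Or.inr fun v hv => fpf_mul hT h htop hx he₂ hne (heq ▸ hv)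
  inv_mem' := by
    rintro _ ⟨e, he, rfl⟩
    have hx : IsMax H (a * e * a⁻¹) := he.conj h.fst.mem
    rw [h.fst.inv_eq hT] at hx
    refine ⟨a * e * a, hx, ?_⟩
    rw [mul_inv_rev, h.fst.inv_eq hT, he.inv_eq hT, ← mul_assoc, ← mul_assoc, h.fst.mul_self hT,
      one_mul]

theorem rot_le : rot hT h htop ≤ H := by
  rintro _ ⟨e, he, rfl⟩
  exact mul_mem h.fst.mem he.mem

theorem rot_fpf {g : V ≃ₗ[ZMod p] V} (hg : g ∈ rot hT h htop) (h1 : g ≠ 1) {v : V} (hv : g v = v) :
    v = 0 := by
  obtain ⟨e, he, rfl⟩ := hg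
  exact fpf_mul hT h htop h.fst he (fun e0 => h1 (by rw [e0, h.fst.mul_self hT])) hv

theorem rot_inverted {g : V ≃ₗ[ZMod p] V} (hg : g ∈ rot hT h htop) : a * g * a = g⁻¹ := by
  obtain ⟨e, he, rfl⟩ := hg
  rw [mul_inv_rev, h.fst.inv_eq hT, he.inv_eq hT, ← mul_assoc a a e, h.fst.mul_self hT, one_mul]

theorem rot_comm {g k : V ≃ₗ[ZMod p] V} (hg : g ∈ rot hT h htop) (hk : k ∈ rot hT h htop) :
    g * k = k * g := by
  have h1 := rot_inverted hT h htop (mul_mem hg hk)
  have h2 : a * (g * k) * a = g⁻¹ * k⁻¹ := by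
    rw [← rot_inverted hT h htop hg, ← rot_inverted hT h htop hk]
    simp only [mul_assoc]
    rw [← mul_assoc a a (k * a), h.fst.mul_self hT, one_mul]
  rw [h2, ← mul_inv_rev, inv_inj] at h1
  exact h1.symm

theorem card_rot : Nat.card (rot hT h htop) = p ^ finrank (ZMod p) (im a) + 1 := by
  haveI : Module.Finite (ZMod p) V := Module.Finite.of_finite
  haveI : Finite (V ≃ₗ[ZMod p] V) := Finite.of_injective _ DFunLike.coe_injective
  have e1 : Nat.card (rot hT h htop) = Nat.card {e // IsMax H e} :=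
    (Nat.card_congr (Equiv.ofBijective
      (fun e : {e // IsMax H e} => (⟨a * e.1, e.1, e.2, rfl⟩ : rot hT h htop))
      ⟨fun x y e => Subtype.ext (mul_left_cancel (congrArg Subtype.val e)),
       fun g => by obtain ⟨e, he, hge⟩ := g.2; exact ⟨⟨e, he⟩, Subtype.ext hge.symm⟩⟩)).symm
  classical
  haveI : Fintype V := Fintype.ofFinite V
  haveI : Fintype {e // IsMax H e} := Fintype.ofFinite _
  let f : (Σ e : {e // IsMax H e}, {t : im e.1 // ¬ t = 0}) → {v : V // ¬ v = 0} :=
    fun x => ⟨x.2.1.1, fun e => x.2.2 (Subtype.ext e)⟩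
  have hf : Function.Bijective f := by
    refine ⟨fun x y e => ?_, fun v => ?_⟩
    · obtain ⟨⟨ex, hx⟩, ⟨tx, htx⟩, htx0⟩ := x
      obtain ⟨⟨ey, hy⟩, ⟨ty, hty⟩, hty0⟩ := y
      have e' : tx = ty := congrArg Subtype.val e
      subst e'
      have : ey = ex := hx.eq_of_im hT hy htx hty (fun e => htx0 (Subtype.ext e))
      subst this
      rfl
    · obtain ⟨e, he, hve⟩ := h.cover hT (htop ▸ Submodule.mem_top : v.1 ∈ span a b) v.2
      exact ⟨⟨⟨e, he.max⟩, ⟨v.1, hve⟩, fun e0 => v.2 (congrArg Subtype.val e0)⟩, rfl⟩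
  have h1 := Fintype.card_congr (Equiv.ofBijective f hf)
  have hcard : ∀ e : {e // IsMax H e},
      Fintype.card {t : im e.1 // ¬ t = 0} = p ^ finrank (ZMod p) (im a) - 1 := by
    intro e
    rw [Fintype.card_subtype_compl, Fintype.card_subtype_eq, ← Nat.card_eq_fintype_card,
      card_submodule, (inPlane_all hT h htop e.2).finrank_im hT h]
  rw [Fintype.card_sigma, Finset.sum_congr rfl fun e _ => hcard e, Finset.sum_const, smul_eq_mul,
    Fintype.card_subtype_compl, Fintype.card_subtype_eq, Finset.card_univ] at h1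
  have hV : Fintype.card V = p ^ finrank (ZMod p) (im a) * p ^ finrank (ZMod p) (im a) := by
    rw [← pow_add, ← two_mul, ← (h.finrank_span hT).1, htop, ← card_submodule, ← Nat.card_eq_fintype_card]
    exact (Nat.card_congr (Equiv.subtypeUnivEquiv fun _ => Submodule.mem_top)).symm
  rw [hV] at h1
  obtain ⟨t, ht, ht0⟩ := h.fst.exists_im_ne_zero
  have h2 : 0 < finrank (ZMod p) (im a) :=
    Submodule.one_le_finrank_iff.2 fun e => ht0 (by rw [e] at ht; exact (Submodule.mem_bot _).1 ht)
  have h3 : 2 ≤ p ^ finrank (ZMod p) (im a) :=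
    le_trans (Fact.out : p.Prime).two_le (Nat.le_self_pow h2.ne' p)
  rw [e1, Nat.card_eq_fintype_card]
  obtain ⟨k, hk⟩ : ∃ k, p ^ finrank (ZMod p) (im a) = k + 1 := ⟨_, (Nat.sub_add_cancel (by omega)).symm⟩
  rw [hk] at h1 h3 ⊢
  rw [Nat.add_sub_cancel, show (k + 1) * (k + 1) = (k + 2) * k + 1 by ring, Nat.add_sub_cancel] at h1
  exact Nat.eq_of_mul_eq_mul_right (by omega) h1

theorem rot_irreducible {Y : Submodule (ZMod p) V} (hY : Y ≠ ⊥)
    (hinv : ∀ g ∈ rot hT h htop, ∀ v ∈ Y, g v ∈ Y) : Y = ⊤ := by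
  haveI : Module.Finite (ZMod p) V := Module.Finite.of_finite
  let X := {v : V // v ∈ Y ∧ v ≠ 0}
  letI : MulAction (rot hT h htop) X :=
    { smul := fun g v => ⟨g.1 v.1, hinv g.1 g.2 v.1 v.2.1, fun e =>
        v.2.2 (by rwa [LinearEquiv.map_eq_zero_iff] at e)⟩
      one_smul := fun v => rfl
      mul_smul := fun g k v => rfl }
  have hfree : ∀ v : X, MulAction.stabilizer (rot hT h htop) v = ⊥ := by
    intro v
    refine (Subgroup.eq_bot_iff_forall _).2 fun g hg => ?_
    by_contra hne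
    exact v.2.2 (rot_fpf hT h htop g.2 (fun e => hne (Subtype.ext e)) (congrArg Subtype.val hg))
  have hc := Nat.card_congr (MulAction.selfEquivOrbitsQuotientProd hfree)
  rw [Nat.card_prod, card_rot hT h htop] at hc
  classical
  haveI : Fintype V := Fintype.ofFinite V
  have hX : Nat.card X = p ^ finrank (ZMod p) Y - 1 := by
    rw [← card_submodule, Nat.card_eq_fintype_card, Nat.card_eq_fintype_card]
    rw [show Fintype.card X = Fintype.card {y : Y // ¬ y = 0} from Fintype.card_congr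
      { toFun := fun v => ⟨⟨v.1, v.2.1⟩, fun e => v.2.2 (congrArg Subtype.val e)⟩
        invFun := fun y => ⟨y.1.1, y.1.2, fun e => y.2 (Subtype.ext e)⟩
        left_inv := fun _ => rfl
        right_inv := fun _ => rfl }]
    rw [Fintype.card_subtype_compl, Fintype.card_subtype_eq]
  rw [hX] at hc
  have h1 := (h.finrank_span hT).1
  rw [htop, finrank_top] at h1
  have h2 : finrank (ZMod p) Y ≤ 2 * finrank (ZMod p) (im a) := h1 ▸ Submodule.finrank_le Y
  have h3 := eq_two_mul_of_dvd (Fact.out : p.Prime).two_le (Submodule.one_le_finrank_iff.2 hY) h2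
    ⟨_, hc.trans (mul_comm _ _)⟩
  exact Submodule.eq_top_of_finrank_eq (by rw [h3, h1])

theorem exists_field_model :
    ∃ (F E : Type) (_ : Field F) (_ : Fintype F) (_ : Field E) (_ : Fintype E) (_ : Algebra F E)
      (e : V ≃+ E), Module.finrank F E = 2 ∧
      (∀ g ∈ H, ∃ (c : E) (φ : E ≃ₐ[F] E), Algebra.norm F c = 1 ∧ ∀ v, e (g v) = c * φ (e v)) ∧
      (∀ (c : E) (φ : E ≃ₐ[F] E), Algebra.norm F c = 1 → ∃ g ∈ H, ∀ v, e (g v) = c * φ (e v)) := by
  classical
  haveI : Module.Finite (ZMod p) V := Module.Finite.of_finite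
  haveI : Finite (V ≃ₗ[ZMod p] V) := Finite.of_injective _ DFunLike.coe_injective
  let S : Set (Module.End (ZMod p) V) :=
    {x | ∃ g ∈ rot hT h htop, x = (g : V ≃ₗ[ZMod p] V).toLinearMap}
  let A : Subalgebra (ZMod p) (Module.End (ZMod p) V) := Algebra.adjoin (ZMod p) S
  have hScomm : ∀ x ∈ S, ∀ y ∈ S, x * y = y * x := by
    rintro _ ⟨g, hg, rfl⟩ _ ⟨k, hk, rfl⟩
    exact congrArg LinearEquiv.toLinearMap (rot_comm hT h htop hg hk)
  have hAS : ∀ x ∈ A, ∀ g ∈ rot hT h htop, ∀ v, x (g v) = g (x v) := by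
    intro x hx
    induction hx using Algebra.adjoin_induction with
    | mem x hx =>
      intro g hg v
      exact LinearMap.congr_fun (hScomm x hx _ ⟨g, hg, rfl⟩) v
    | algebraMap c => intro g hg v; simp [Module.algebraMap_end_apply]
    | add x y _ _ ihx ihy =>
      intro g hg v
      rw [LinearMap.add_apply, LinearMap.add_apply, ihx g hg v, ihy g hg v, map_add]
    | mul x y _ _ ihx ihy =>
      intro g hg v
      rw [Module.End.mul_apply, Module.End.mul_apply, ihy g hg v, ihx g hg]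
  have hcA : IsMulCommutative A := Algebra.isMulCommutative_adjoin (ZMod p) hScomm
  letI : CommRing A :=
    { (inferInstance : Ring A) with
      mul_comm := fun x y => hcA.is_comm.comm x y }
  haveI : Finite (Module.End (ZMod p) V) := Finite.of_injective _ DFunLike.coe_injective
  haveI : Fintype A := Fintype.ofFinite A
  obtain ⟨t, ht, ht0⟩ := h.fst.exists_im_ne_zero
  have hd : 0 < finrank (ZMod p) (im a) :=
    Submodule.one_le_finrank_iff.2 fun e => ht0 (by rw [e] at ht; exact (Submodule.mem_bot _).1 ht)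
  obtain ⟨v₀, hv₀a, hv₀⟩ : ∃ v₀, a v₀ = v₀ ∧ v₀ ≠ 0 := by
    have h1 := (InPlane.left hT h).finrank_fx hT h
    obtain ⟨v, hv, hv0⟩ := (Submodule.ne_bot_iff _).1
      (Submodule.one_le_finrank_iff.1 (by omega : 1 ≤ finrank (ZMod p) (fx a)))
    exact ⟨v, mem_fx.1 hv, hv0⟩
  -- nonzero elements are injective
  have hinj : ∀ x : A, x ≠ 0 → ∀ v, (x : Module.End (ZMod p) V) v = 0 → v = 0 := by
    intro x hx v hv
    by_contra hv0
    have htop' := rot_irreducible hT h htop (Y := LinearMap.ker (x : Module.End (ZMod p) V))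
      (fun e0 => hv0 ((Submodule.eq_bot_iff _).1 e0 v hv)) (fun g hg w hw => by
        rw [LinearMap.mem_ker] at hw ⊢
        rw [hAS x x.2 g hg w, hw, map_zero])
    exact hx (Subtype.ext (LinearMap.ker_eq_top.1 htop'))
  haveI : NoZeroDivisors A := ⟨fun {x y} hxy => by
    by_contra hc
    push Not at hc
    obtain ⟨v, hv⟩ : ∃ v, (y : Module.End (ZMod p) V) v ≠ 0 := by
      by_contra hy
      push Not at hy
      exact hc.2 (Subtype.ext (LinearMap.ext hy))
    exact hv (hinj x hc.1 _ (LinearMap.congr_fun (congrArg Subtype.val hxy) v))⟩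
  haveI : Nontrivial A := ⟨1, 0, fun e => hv₀ (LinearMap.congr_fun (congrArg Subtype.val e) v₀)⟩
  haveI : IsDomain A := NoZeroDivisors.to_isDomain A
  letI : Field A := (Finite.isField_of_domain A).toField
  -- evaluation at a fixed vector of `a`
  let ev : A →ₗ[ZMod p] V :=
    { toFun := fun x => (x : Module.End (ZMod p) V) v₀
      map_add' := fun x y => rfl
      map_smul' := fun c x => rfl }
  have hgen : ∀ g ∈ rot hT h htop, g.toLinearMap ∈ A := fun g hg =>
    Algebra.subset_adjoin ⟨g, hg, rfl⟩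
  have hev : Function.Bijective ev := by
    refine ⟨fun x y e => sub_eq_zero.1 (by_contra fun hne => hv₀ (hinj _ hne v₀ ?_)), ?_⟩
    · show (x : Module.End (ZMod p) V) v₀ - (y : Module.End (ZMod p) V) v₀ = 0
      exact sub_eq_zero.2 e
    · have htop' := rot_irreducible hT h htop (Y := LinearMap.range ev)
        (fun e0 => hv₀ ((Submodule.eq_bot_iff _).1 e0 v₀ ⟨1, rfl⟩)) (fun g hg w hw => by
          obtain ⟨x, rfl⟩ := hw
          exact ⟨⟨g.toLinearMap, hgen g hg⟩ * x, rfl⟩)
      exact LinearMap.range_eq_top.1 htop'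
  let E : A ≃ₗ[ZMod p] V := LinearEquiv.ofBijective ev hev
  have hEmul : ∀ (x y : A), ev (x * y) = (x : Module.End (ZMod p) V) (ev y) := fun x y => rfl
  -- the rotations as elements of the field
  let ι : rot hT h htop → A := fun g => ⟨g.1.toLinearMap, hgen g.1 g.2⟩
  have hι : Function.Injective ι := fun x y e =>
    Subtype.ext (LinearEquiv.toLinearMap_injective (congrArg Subtype.val e))
  have hιmul : ∀ x y, ι (x * y) = ι x * ι y := fun x y => rfl
  have hι1 : ι 1 = 1 := rfl
  set q := p ^ finrank (ZMod p) (im a) with hq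
  have hιpow : ∀ g, ι g ^ (q + 1) = 1 := fun g => by
    have hm : ∀ k : ℕ, ι g ^ k = ι (g ^ k) := fun k => by
      induction k with
      | zero => rw [pow_zero, pow_zero, hι1]
      | succ k ih => rw [pow_succ, pow_succ, hιmul, ih]
    rw [hm, ← card_rot hT h htop, pow_card_eq_one', hι1]
  -- conjugation by `a` is the power `q`
  have hσ : ∀ x : A, ∀ v, a ((x : Module.End (ZMod p) V) v) = ((x ^ q : A) : Module.End (ZMod p) V) (a v) := by
    haveI : CharP A p := charP_of_injective_algebraMap (algebraMap (ZMod p) A).injective p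
    haveI : ExpChar A p := ExpChar.prime (Fact.out : p.Prime)
    rintro ⟨x, hx⟩
    induction hx using Algebra.adjoin_induction with
    | mem x hx =>
      obtain ⟨g, hg, rfl⟩ := hx
      intro v
      have h1 : ι (⟨g, hg⟩⁻¹) = (⟨g.toLinearMap, hgen g hg⟩ : A) ^ q := by
        refine mul_left_cancel₀ (a := ι ⟨g, hg⟩) (fun e => ?_) ?_
        · exact hv₀ ((LinearEquiv.map_eq_zero_iff g).1 (LinearMap.congr_fun (congrArg Subtype.val e) v₀))
        · rw [← hιmul, mul_inv_cancel, hι1]
          exact (hιpow ⟨g, hg⟩).symm.trans (pow_succ' _ _)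
      rw [← h1]
      show a (g v) = g⁻¹ (a v)
      rw [← rot_inverted hT h htop hg, mul_apply, mul_apply, h.fst.apply_apply hT]
    | algebraMap c =>
      intro v
      have hc : (algebraMap (ZMod p) A c) ^ q = algebraMap (ZMod p) A c := by
        rw [← map_pow, hq, ZMod.pow_card_pow]
      have h0 : (⟨_, Subalgebra.algebraMap_mem A c⟩ : A) = algebraMap (ZMod p) A c := rfl
      rw [show (⟨algebraMap (ZMod p) (Module.End (ZMod p) V) c, _⟩ : A) = algebraMap (ZMod p) A c from h0,
        hc]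
      show a (c • v) = c • a v
      rw [map_smul]
    | add x y hx hy ihx ihy =>
      intro v
      have hadd : ((⟨x, hx⟩ : A) + ⟨y, hy⟩) ^ q = (⟨x, hx⟩ : A) ^ q + (⟨y, hy⟩ : A) ^ q := by
        rw [hq, add_pow_expChar_pow]
      show a (x v + y v) = ((((⟨x, hx⟩ : A) + ⟨y, hy⟩) ^ q : A) : Module.End (ZMod p) V) (a v)
      rw [hadd, map_add]
      exact congrArg₂ (· + ·) (ihx v) (ihy v)
    | mul x y hx hy ihx ihy =>
      intro v
      show a (x (y v)) = ((((⟨x, hx⟩ : A) * ⟨y, hy⟩) ^ q : A) : Module.End (ZMod p) V) (a v)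
      rw [mul_pow]
      exact (ihx (y v)).trans (congrArg _ (ihy v))
  -- conjugation by `a` as a field automorphism
  have hφmul : ∀ x : A, ev (x ^ q) = a (ev x) := fun x => by
    show ((x ^ q : A) : Module.End (ZMod p) V) v₀ = a ((x : Module.End (ZMod p) V) v₀)
    rw [hσ, hv₀a]
  let φ₀ : A ≃+* A :=
    { toFun := fun x => x ^ q
      invFun := fun x => x ^ q
      left_inv := fun x => hev.1 (by rw [hφmul, hφmul, h.fst.apply_apply hT])
      right_inv := fun x => hev.1 (by rw [hφmul, hφmul, h.fst.apply_apply hT])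
      map_mul' := fun x y => mul_pow x y q
      map_add' := fun x y => hev.1 (by rw [map_add, hφmul, hφmul, hφmul, map_add, map_add]) }
  have hφne : φ₀ ≠ 1 := fun e => by
    obtain ⟨w, hw⟩ := Binary.fx_ne_top h.fst.ne_one
    obtain ⟨x, rfl⟩ := hev.2 w
    refine hw ?_
    rw [← hφmul]
    exact congrArg ev (RingEquiv.congr_fun e x)
  let Gr : Subgroup (A ≃+* A) := Subgroup.zpowers φ₀
  have hφ2 : orderOf φ₀ = 2 := orderOf_eq_prime (by
    rw [pow_two]; exact RingEquiv.ext fun x => φ₀.left_inv x) hφne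
  haveI : Finite (A ≃+* A) := Finite.of_injective _ DFunLike.coe_injective
  haveI : Fintype Gr := Fintype.ofFinite Gr
  let F : Subfield A := FixedPoints.subfield Gr A
  haveI : Fintype F := Fintype.ofFinite F
  have hrank : Module.finrank F A = 2 := by
    rw [show Module.finrank F A = Fintype.card Gr from FixedPoints.finrank_eq_card Gr A,
      ← Nat.card_eq_fintype_card, Nat.card_zpowers, hφ2]
  have hcardA : Fintype.card A = q * q := by
    rw [← Nat.card_eq_fintype_card, Nat.card_congr E.toEquiv, Module.natCard_eq_pow_finrank (K := ZMod p),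
      Nat.card_zmod, hq, ← pow_add, ← two_mul, ← (h.finrank_span hT).1, htop, finrank_top]
  have hcardF : Fintype.card F = q := by
    have h1 : Fintype.card A = Fintype.card F ^ 2 := by rw [← hrank, ← Module.card_eq_pow_finrank]
    rw [hcardA, pow_two] at h1
    exact (Nat.mul_self_inj.1 h1).symm
  have hφF : ∀ x : F, φ₀ (x : A) = x := fun x => x.2 ⟨φ₀, Subgroup.mem_zpowers φ₀⟩
  let σ : A ≃ₐ[F] A := AlgEquiv.ofRingEquiv (f := φ₀) hφF
  have hσne : σ ≠ 1 := fun e => hφne (RingEquiv.ext fun x => AlgEquiv.congr_fun e x)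
  have haut : ∀ φ : A ≃ₐ[F] A, φ = 1 ∨ φ = σ := by
    intro φ
    haveI : FiniteDimensional F A := Module.Finite.of_finite
    haveI : IsGalois F A := by infer_instance
    have h2 : Nat.card (A ≃ₐ[F] A) = 2 := (IsGalois.card_aut_eq_finrank F A).trans hrank
    obtain ⟨x, y, -, huniv⟩ := Nat.card_eq_two_iff.1 h2
    have h3 : ∀ z : A ≃ₐ[F] A, z = x ∨ z = y := fun z => by
      have := huniv.ge (Set.mem_univ z)
      simpa using this
    rcases h3 φ with hz | hz <;> rcases h3 1 with hz1 | hz1 <;> rcases h3 σ with hzs | hzs <;>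
      subst hz <;> first
      | exact Or.inl hz1.symm
      | exact Or.inr hzs.symm
      | exact absurd (hzs.trans hz1.symm) hσne
  have hnorm : ∀ x : A, Algebra.norm F x = 1 ↔ x ^ (q + 1) = 1 := by
    intro x
    have h1 := FiniteField.algebraMap_norm_eq_pow_sum F A x
    rw [hrank, Finset.sum_range_succ, Finset.sum_range_one, Nat.card_eq_fintype_card, hcardF, pow_zero,
      pow_one, add_comm 1 q] at h1
    rw [← h1]
    exact ⟨fun e => by rw [e, map_one], fun e => (algebraMap F A).injective (e.trans (map_one _).symm)⟩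
  have hroots : ∀ x : A, x ^ (q + 1) = 1 → ∃ g, ι g = x := by
    intro x hx
    by_contra hc
    push Not at hc
    haveI : Fintype (rot hT h htop) := Fintype.ofFinite _
    let s : Finset A := insert x (Finset.univ.image ι)
    have hs : s.card = q + 2 := by
      rw [Finset.card_insert_of_notMem (by simp [hc]), Finset.card_image_of_injective _ hι,
        Finset.card_univ, ← Nat.card_eq_fintype_card, card_rot hT h htop]
    have h2 : s ≤ (Polynomial.nthRoots (q + 1) (1 : A)).toFinset := by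
      intro y hy
      rw [Multiset.mem_toFinset, Polynomial.mem_nthRoots (by omega)]
      rcases Finset.mem_insert.1 hy with rfl | hy
      · exact hx
      · obtain ⟨g, -, rfl⟩ := Finset.mem_image.1 hy
        exact hιpow g
    have h3 := (Finset.card_le_card h2).trans ((Multiset.toFinset_card_le _).trans
      (Polynomial.card_nthRoots _ _))
    omega
  have hsymm : ∀ x : A, E.symm (ev x) = x := fun x => E.symm_apply_apply x
  refine ⟨F, A, inferInstance, inferInstance, inferInstance, inferInstance, inferInstance,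
    E.symm.toAddEquiv, hrank, ?_, ?_⟩
  · intro g hg
    -- rotations
    have hrot : ∀ r : rot hT h htop, ∀ v, E.symm (r.1 v) = ι r * E.symm v := fun r v => by
      obtain ⟨x, rfl⟩ := hev.2 v
      rw [hsymm, ← hsymm (ι r * x)]
      rfl
    have hnι : ∀ r, Algebra.norm F (ι r) = 1 := fun r => (hnorm _).2 (hιpow r)
    by_cases hfp : g = 1 ∨ ∀ v, g v = v → v = 0
    · obtain ⟨e, he, rfl⟩ := exists_eq_mul hT h htop hg hfp
      exact ⟨ι ⟨a * e, e, he, rfl⟩, 1, hnι _, fun v => hrot ⟨a * e, e, he, rfl⟩ v⟩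
    · push Not at hfp
      obtain ⟨hg1, v, hv, hv0⟩ := hfp
      rcases max_or_fpf hT h htop hg hg1 with hm | hm
      swap
      · exact absurd (hm v hv) hv0
      refine ⟨(ι ⟨a * g, g, hm, rfl⟩) ^ q, σ, (hnorm _).2 (by rw [← pow_mul, mul_comm, pow_mul, hιpow,
        one_pow]), fun w => ?_⟩
      obtain ⟨x, rfl⟩ := hev.2 w
      have h1 : g (ev x) = a ((a * g) (ev x)) := by rw [mul_apply, h.fst.apply_apply hT]
      show E.symm (g (ev x)) = _ * σ (E.symm (ev x))
      rw [h1, hsymm, show (a * g) (ev x) = ev (ι ⟨a * g, g, hm, rfl⟩ * x) from rfl, ← hφmul, hsymm,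
        mul_pow]
      rfl
  · intro c φ hc
    obtain ⟨r, hr⟩ := hroots c ((hnorm c).1 hc)
    subst hr
    have hrot : ∀ v, E.symm (r.1 v) = ι r * E.symm v := fun v => by
      obtain ⟨x, rfl⟩ := hev.2 v
      rw [hsymm, ← hsymm (ι r * x)]
      rfl
    rcases haut φ with rfl | rfl
    · exact ⟨r.1, rot_le hT h htop r.2, hrot⟩
    · refine ⟨r.1 * a, mul_mem (rot_le hT h htop r.2) h.fst.mem, fun w => ?_⟩
      obtain ⟨x, rfl⟩ := hev.2 w
      show E.symm ((r.1 * a) (ev x)) = ι r * σ (E.symm (ev x))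
      rw [mul_apply, hrot, hsymm, ← hφmul, hsymm]
      rfl

end Cfsg.Agent.H13.Binary
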