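import Cfsg.Agent.H13.Binary.Basic

/-!
Two non-commuting maximal elements: their displacement spaces span a complement of their common
fixed space, and their product moves every vector outside that space.
-/

set_option autoImplicit false
set_option linter.unusedSectionVars false

namespace Cfsg.Agent.H13.Binary

open Module

variable {p : ℕ} [Fact p.Prime] {V : Type*} [AddCommGroup V] [Module (ZMod p) V]
  {H : Subgroup (V ≃ₗ[ZMod p] V)}

theorem nsmul_eq_zero_of_not_dvd {k : ℕ} (hk : ¬ p ∣ k) {x : V} (h : k • x = 0) : x = 0 := by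
  rw [← Nat.cast_smul_eq_nsmul (ZMod p)] at h
  exact (smul_eq_zero.1 h).resolve_left fun e => hk ((ZMod.natCast_eq_zero_iff _ _).1 e)

theorem two_ne (hp : p ≠ 2) : ¬ p ∣ 2 := fun h =>
  hp ((Nat.prime_dvd_prime_iff_eq Fact.out Nat.prime_two).1 h)

theorem eq_zero_of_neg_eq (hp : p ≠ 2) {x : V} (h : -x = x) : x = 0 := by
  refine nsmul_eq_zero_of_not_dvd (two_ne hp) ?_
  rw [two_nsmul]
  calc x + x = x + -x := by rw [h]
    _ = 0 := add_neg_cancel x

theorem neg_eq_of_two {V : Type*} [AddCommGroup V] [Module (ZMod 2) V] (x : V) : -x = x := by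
  have h : x + x = (0 : V) := by
    rw [← two_smul (ZMod 2) x, show (2 : ZMod 2) = 0 from rfl, zero_smul]
  exact (eq_neg_of_add_eq_zero_left h).symm

theorem neg_eq (hp : p = 2) (x : V) : -x = x := by
  subst hp; exact neg_eq_of_two x

theorem finrank_fx_add_im [Finite V] (h : V ≃ₗ[ZMod p] V) :
    finrank (ZMod p) (im h) + finrank (ZMod p) (fx h) = finrank (ZMod p) V := by
  haveI : Module.Finite (ZMod p) V := Module.Finite.of_finite
  exact LinearMap.finrank_range_add_finrank_ker _

theorem pow_apply_add {h : V ≃ₗ[ZMod p] V} {u x : V} (hu : h u = u + x) (hx : h x = x) :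
    ∀ k : ℕ, (h ^ k) u = u + k • x
  | 0 => by simp [one_apply]
  | k + 1 => by
      rw [pow_succ', mul_apply, pow_apply_add hu hx k, map_add, map_nsmul, hu, hx, succ_nsmul]
      abel

/-- A non-commuting pair of maximal elements. -/
structure IsPair (H : Subgroup (V ≃ₗ[ZMod p] V))
    (a b : V ≃ₗ[ZMod p] V) : Prop where
  fst : IsMax H a
  snd : IsMax H b
  ne_comm : a * b ≠ b * a

theorem IsPair.symm {a b : V ≃ₗ[ZMod p] V} (h : IsPair H a b) : IsPair H b a :=
  ⟨h.snd, h.fst, h.ne_comm.symm⟩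

theorem IsPair.ne {a b : V ≃ₗ[ZMod p] V} (h : IsPair H a b) : b ≠ a :=
  fun e => h.ne_comm (by rw [e])

/-- The common fixed space of a pair. -/
def axis (a b : V ≃ₗ[ZMod p] V) : Submodule (ZMod p) V := fx a ⊓ fx b

/-- The space spanned by the displacements of a pair. -/
def span (a b : V ≃ₗ[ZMod p] V) : Submodule (ZMod p) V := im a ⊔ im b

open Polynomial in
theorem eq_one_of_pow_prime (hT : Trans H) (hp : p ≠ 2) {h : V ≃ₗ[ZMod p] V} (hh : h ∈ H)
    (hpow : h ^ p = 1) : h = 1 := by
  by_contra h1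
  obtain ⟨v0, hv0⟩ := fx_ne_top h1
  have hnil : (h.toLinearMap - LinearMap.id : Module.End (ZMod p) V) ^ p = 0 := by
    have hpol : ((X : (ZMod p)[X]) - 1) ^ p = X ^ p - 1 := by rw [sub_pow_char, one_pow]
    have hev := congrArg (aeval (h.toLinearMap : Module.End (ZMod p) V)) hpol
    simp only [map_sub, map_pow, map_one, aeval_X] at hev
    rw [show (h.toLinearMap ^ p : Module.End (ZMod p) V) = 1 from ?_, sub_self] at hev
    · exact hev
    · refine LinearMap.ext fun v => ?_
      rw [Module.End.pow_apply]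
      have : ∀ n : ℕ, (⇑(h.toLinearMap))^[n] v = (h ^ n) v := by
        intro n
        induction n with
        | zero => rfl
        | succ n ih => rw [Function.iterate_succ_apply', ih, pow_succ', mul_apply]; rfl
      rw [this, hpow]
      rfl
  -- a vector moved by a displacement that is fixed
  have key : ∀ n : ℕ, ∀ v : V, ((h.toLinearMap - LinearMap.id : Module.End (ZMod p) V) ^ n) v = 0 → h v ≠ v →
      ∃ w, h w ≠ w ∧ h (h w - w) = h w - w := by
    intro n
    induction n with
    | zero => intro v hv hne; exact absurd (by rw [show v = 0 from hv, map_zero]) hne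
    | succ n ih =>
      intro v hv hne
      by_cases hf : h (h v - v) = h v - v
      · exact ⟨v, hne, hf⟩
      · rw [pow_succ] at hv
        exact ih (h v - v) hv hf
  obtain ⟨v, hv, hfix⟩ := key p v0 (by rw [hnil]; rfl) hv0
  obtain ⟨w, hwH, hw⟩ := hT.witness (h v - v)
  have e1 : h v = v + (h v - v) := by abel
  have e2 : h (v + (h v - v)) = v + (h v - v) + (h v - v) := by rw [map_add, hfix, ← e1]
  have h3 := hw h hh _ e2
  rw [map_add, hw h hh v e1, witness_neg hh hw e1] at h3
  exact sub_ne_zero.2 hv (eq_zero_of_neg_eq hp (add_left_cancel h3))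

variable (hT : Trans H)
include hT

/-- An element commuting with a maximal `g` acts on each displacement of `g` as `1` or `-1`. -/
theorem IsMax.apply_im_of_commute {g h : V ≃ₗ[ZMod p] V} (hg : IsMax H g) (hh : h ∈ H)
    (hc : g * h = h * g) {t : V} (ht : t ∈ im g) : h t = t ∨ h t = -t := by
  refine or_iff_not_imp_left.2 fun hne => ?_
  have h1 : h t ∈ im g := by
    have := im_conj h g ht
    rwa [← hc, mul_assoc, mul_inv_cancel, mul_one] at this
  rw [← hg.agree hT hh (sub_mem h1 ht) hne, hg.apply_im hT ht]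

theorem IsMax.fixes_im_of_commute (hp : p = 2) {g h : V ≃ₗ[ZMod p] V} (hg : IsMax H g) (hh : h ∈ H)
    (hc : g * h = h * g) {t : V} (ht : t ∈ im g) : h t = t :=
  (hg.apply_im_of_commute hT hh hc ht).elim id fun e => e.trans (neg_eq hp t)

theorem IsMax.inf_eq_bot {a b : V ≃ₗ[ZMod p] V} (ha : IsMax H a) (hb : IsMax H b)
    (hab : a * b ≠ b * a) : im b ⊓ fx a = ⊥ :=
  (Submodule.eq_bot_iff _).2 fun t ⟨h1, h2⟩ => by
    by_contra h
    exact hab (ha.commute_of_mem hT hb h1 h2 h)

theorem IsMax.finrank_im_eq [Finite V] {a b : V ≃ₗ[ZMod p] V} (ha : IsMax H a) (hb : IsMax H b)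
    (hab : a * b ≠ b * a) : finrank (ZMod p) (im a) = finrank (ZMod p) (im b) := by
  haveI : Module.Finite (ZMod p) V := Module.Finite.of_finite
  have h1 := Submodule.finrank_add_finrank_le_of_disjoint (disjoint_iff.2 (ha.inf_eq_bot hT hb hab))
  have h2 := Submodule.finrank_add_finrank_le_of_disjoint (disjoint_iff.2 (hb.inf_eq_bot hT ha hab.symm))
  have h3 := finrank_fx_add_im (p := p) a
  have h4 := finrank_fx_add_im (p := p) b
  omega

theorem IsPair.fix_mul {a b : V ≃ₗ[ZMod p] V} (h : IsPair H a b) {v : V} (hv : (a * b) v = v) :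
    v ∈ axis a b := by
  rw [mul_apply] at hv
  have h1 : b v = a v := by conv_rhs => rw [← hv, h.fst.apply_apply hT]
  have h2 : a v - v = 0 := h.fst.disjoint_im hT h.snd h.ne (sub_mem_im a v)
    (by rw [← h1]; exact sub_mem_im b v)
  exact ⟨mem_fx.2 (sub_eq_zero.1 h2), mem_fx.2 (by rw [h1, sub_eq_zero.1 h2])⟩

theorem IsPair.fix_mul_mul {a b : V ≃ₗ[ZMod p] V} (h : IsPair H a b) {v : V}
    (hv : (a * b) ((a * b) v) = v) : v ∈ axis a b := by
  simp only [mul_apply] at hv
  have hc : IsMax H (b * a * b⁻¹) := h.fst.conj h.snd.mem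
  have hne : b * a * b⁻¹ ≠ a := fun e => h.ne_comm.symm (by
    calc b * a = b * a * b⁻¹ * b := by group
      _ = a * b := by rw [e])
  have h1 : (b * a * b⁻¹) v = a v := by
    rw [h.snd.inv_eq hT]
    simp only [mul_apply]
    conv_rhs => rw [← hv, h.fst.apply_apply hT]
  have h2 : a v = v := sub_eq_zero.1 (h.fst.disjoint_im hT hc hne (sub_mem_im a v)
    (by rw [← h1]; exact sub_mem_im _ v))
  rw [h2, h.snd.inv_eq hT] at h1
  simp only [mul_apply] at h1
  have h3 : a (b v) = b v := by
    conv_rhs => rw [← h1, h.snd.apply_apply hT]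
  have h4 : b v - v = 0 := by
    by_contra h0
    exact h.ne_comm (h.fst.commute_of_mem hT h.snd (sub_mem_im b v)
      (mem_fx.2 (by rw [map_sub, h3, h2])) h0)
  exact ⟨mem_fx.2 h2, mem_fx.2 (sub_eq_zero.1 h4)⟩

theorem IsPair.span_inf_axis [Finite V] {a b : V ≃ₗ[ZMod p] V} (h : IsPair H a b) :
    span a b ⊓ axis a b = ⊥ := by
  refine (Submodule.eq_bot_iff _).2 ?_
  rintro x ⟨hxs, hxa, hxb⟩
  obtain ⟨u, hu, u', hu', rfl⟩ := Submodule.mem_sup.1 hxs
  rw [SetLike.mem_coe, mem_fx] at hxa hxb
  have e1 := h.fst.apply_im hT hu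
  have e2 := h.snd.apply_im hT hu'
  by_cases hp : p = 2
  · rw [map_add, e1, neg_eq hp, add_left_cancel_iff] at hxa
    have hu'0 : u' = 0 := by
      by_contra h0
      exact h.ne_comm (h.fst.commute_of_mem hT h.snd hu' (mem_fx.2 hxa) h0)
    subst hu'0
    rw [add_zero] at hxb ⊢
    by_contra h0
    exact h.ne_comm (h.snd.commute_of_mem hT h.fst hu (mem_fx.2 hxb) h0).symm
  · have ea : a u' = u' + u + u := by
      calc a u' = a (u + u') - a u := by rw [map_add]; abel
        _ = u' + u + u := by rw [hxa, e1]; abel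
    have eb : b u = u + u' + u' := by
      calc b u = b (u + u') - b u' := by rw [map_add]; abel
        _ = u + u' + u' := by rw [hxb, e2]
                              abel
    have hr : (a * b) u = u + 2 • (u + u') := by
      rw [mul_apply, eb, map_add, map_add, e1, ea, two_nsmul]
      abel
    have hrx : (a * b) (2 • (u + u')) = 2 • (u + u') := by
      rw [map_nsmul, mul_apply, hxb, hxa]
    haveI : Finite (V ≃ₗ[ZMod p] V) := Finite.of_injective _ DFunLike.coe_injective
    have hk := pow_apply_add hr hrx (orderOf (a * b))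
    rw [pow_orderOf_eq_one, one_apply] at hk
    refine nsmul_eq_zero_of_not_dvd (p := p) (two_ne hp) (nsmul_eq_zero_of_not_dvd (p := p) (k := orderOf (a * b))
      (fun hd => ?_) (add_left_cancel (hk.symm.trans (add_zero u).symm)))
    have hpos : 0 < orderOf (a * b) := orderOf_pos _
    have h1 : (a * b) ^ (orderOf (a * b) / p) = 1 := eq_one_of_pow_prime hT hp
      (pow_mem (mul_mem h.fst.mem h.snd.mem) _)
      (by rw [← pow_mul, Nat.div_mul_cancel hd, pow_orderOf_eq_one])
    have := Nat.le_of_dvd (Nat.div_pos (Nat.le_of_dvd hpos hd) (Fact.out : p.Prime).pos)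
      (orderOf_dvd_of_pow_eq_one h1)
    exact absurd (Nat.div_lt_self hpos (Fact.out : p.Prime).one_lt) (by omega)

theorem IsPair.finrank_span [Finite V] {a b : V ≃ₗ[ZMod p] V} (h : IsPair H a b) :
    finrank (ZMod p) (span a b) = 2 * finrank (ZMod p) (im a) ∧
      finrank (ZMod p) (axis a b) + 2 * finrank (ZMod p) (im a) = finrank (ZMod p) V := by
  haveI : Module.Finite (ZMod p) V := Module.Finite.of_finite
  have h1 := Submodule.finrank_sup_add_finrank_inf_eq (im a) (im b)
  have h0 : im a ⊓ im b = ⊥ := (Submodule.eq_bot_iff _).2 fun t ⟨ta, tb⟩ =>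
    h.fst.disjoint_im hT h.snd h.ne ta tb
  rw [h0, finrank_bot, ← h.fst.finrank_im_eq hT h.snd h.ne_comm] at h1
  have h2 := Submodule.finrank_sup_add_finrank_inf_eq (fx a) (fx b)
  have h3 := Submodule.finrank_le (fx a ⊔ fx b)
  have h4 := finrank_fx_add_im (p := p) a
  have h5 := finrank_fx_add_im (p := p) b
  have h6 := Submodule.finrank_add_finrank_le_of_disjoint (disjoint_iff.2 (h.span_inf_axis hT))
  have h7 := h.fst.finrank_im_eq hT h.snd h.ne_comm
  unfold span axis at *
  omega

theorem IsPair.sup_axis [Finite V] {a b : V ≃ₗ[ZMod p] V} (h : IsPair H a b) :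
    span a b ⊔ axis a b = ⊤ := by
  haveI : Module.Finite (ZMod p) V := Module.Finite.of_finite
  refine Submodule.eq_top_of_finrank_eq ?_
  have h1 := Submodule.finrank_sup_add_finrank_inf_eq (span a b) (axis a b)
  rw [h.span_inf_axis hT, finrank_bot] at h1
  have := h.finrank_span hT
  omega

theorem IsPair.sub_mem_span {a b : V ≃ₗ[ZMod p] V} (_h : IsPair H a b) (v : V) :
    (a * b) v - v ∈ span a b := by
  rw [mul_apply, show a (b v) - v = (a (b v) - b v) + (b v - v) by abel]
  exact Submodule.add_mem_sup (sub_mem_im a _) (sub_mem_im b _)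

/-- In characteristic two the product of a pair has odd order. -/
theorem IsPair.odd_orderOf [Finite V] (hp : p = 2) {a b : V ≃ₗ[ZMod p] V} (h : IsPair H a b) :
    Odd (orderOf (a * b)) := by
  rw [← Nat.not_even_iff_odd]
  rintro ⟨m, hm⟩
  haveI : Finite (V ≃ₗ[ZMod p] V) := Finite.of_injective _ DFunLike.coe_injective
  have hmem : (a * b) ^ m ∈ H := pow_mem (mul_mem h.fst.mem h.snd.mem) _
  have hzz : (a * b) ^ m * (a * b) ^ m = 1 := by rw [← pow_add, ← hm, pow_orderOf_eq_one]
  have ha : a * (a * b) ^ m = (a * b) ^ m * a := by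
    have e : a * (a * b) * a⁻¹ = (a * b)⁻¹ := by
      rw [mul_inv_rev, h.fst.inv_eq hT, h.snd.inv_eq hT, ← mul_assoc a a b, h.fst.mul_self hT, one_mul]
    have e' : a * (a * b) ^ m * a⁻¹ = (a * b) ^ m := by
      rw [← conj_pow, e, inv_pow, inv_eq_of_mul_eq_one_right hzz]
    calc a * (a * b) ^ m = a * (a * b) ^ m * a⁻¹ * a := by group
      _ = (a * b) ^ m * a := by rw [e']
  have hb : b * (a * b) ^ m = (a * b) ^ m * b := by
    have hb' : b = a * (a * b) := by rw [← mul_assoc, h.fst.mul_self hT, one_mul]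
    have e : (a * b) * (a * b) ^ m = (a * b) ^ m * (a * b) := (Commute.self_pow (a * b) m).eq
    calc b * (a * b) ^ m = a * ((a * b) * (a * b) ^ m) := by rw [← mul_assoc, ← hb']
      _ = a * (a * b) ^ m * (a * b) := by rw [e, mul_assoc]
      _ = (a * b) ^ m * (a * (a * b)) := by rw [ha, mul_assoc]
      _ = (a * b) ^ m * b := by rw [← hb']
  have hz : (a * b) ^ m = 1 := by
    refine LinearEquiv.ext fun v => ?_
    obtain ⟨x, hx, c, ⟨hca, hcb⟩, rfl⟩ := Submodule.mem_sup.1
      ((h.sup_axis hT).ge (Submodule.mem_top : v ∈ ⊤))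
    obtain ⟨u, hu, u', hu', rfl⟩ := Submodule.mem_sup.1 hx
    have hc : (a * b) c = c := by rw [mul_apply, mem_fx.1 hcb, mem_fx.1 hca]
    have hcm : ∀ k : ℕ, ((a * b) ^ k) c = c := by
      intro k
      induction k with
      | zero => rfl
      | succ k ih => rw [pow_succ', mul_apply, ih, hc]
    rw [map_add, map_add, h.fst.fixes_im_of_commute hT hp hmem ha hu,
      h.snd.fixes_im_of_commute hT hp hmem hb hu', hcm, one_apply]
  have := orderOf_pos (a * b)
  have := Nat.le_of_dvd (by omega) (orderOf_dvd_of_pow_eq_one hz)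
  omega

end Cfsg.Agent.H13.Binary
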