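import Cfsg.Agent.H13.Binary.FieldModel

/-!
Binary primitive groups with an abelian normal subgroup: translations and the linear point stabiliser.
-/

set_option autoImplicit false
set_option linter.unusedSectionVars false
set_option linter.style.haveILetI false

namespace Cfsg.Agent.H13.Binary

open Module

theorem exists_coords' (p : ℕ) [Fact p.Prime] {A : Type*} [AddCommGroup A] [Finite A]
    [Module (ZMod p) A] : ∃ k : ℕ, Nonempty (A ≃+ (Fin k → ZMod p)) := by
  haveI : Module.Finite (ZMod p) A := Module.Finite.of_finite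
  exact ⟨_, ⟨(Module.finBasis (ZMod p) A).equivFun.toAddEquiv⟩⟩

theorem exists_coords (p : ℕ) [Fact p.Prime] {A : Type*} [AddCommGroup A] [Finite A]
    (h : ∀ x : A, p • x = 0) : ∃ k : ℕ, Nonempty (A ≃+ (Fin k → ZMod p)) := by
  letI : Module (ZMod p) A := AddCommGroup.zmodModule h
  exact exists_coords' p

theorem classify {p : ℕ} [Fact p.Prime] {V : Type} [AddCommGroup V] [Module (ZMod p) V] [Finite V]
    [Nontrivial V] {H : Subgroup (V ≃ₗ[ZMod p] V)} (hT : Trans H) (hI : Irred H) :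
    (Nat.card V = p ∧ Nat.card H ≤ 2) ∨
    ∃ (F E : Type) (_ : Field F) (_ : Fintype F) (_ : Field E) (_ : Fintype E) (_ : Algebra F E)
      (e : V ≃+ E), Module.finrank F E = 2 ∧
      (∀ g ∈ H, ∃ (c : E) (φ : E ≃ₐ[F] E), Algebra.norm F c = 1 ∧ ∀ v, e (g v) = c * φ (e v)) ∧
      (∀ (c : E) (φ : E ≃ₐ[F] E), Algebra.norm F c = 1 → ∃ g ∈ H, ∀ v, e (g v) = c * φ (e v)) := by
  haveI : Module.Finite (ZMod p) V := Module.Finite.of_finite
  haveI : Finite (V ≃ₗ[ZMod p] V) := Finite.of_injective _ DFunLike.coe_injective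
  by_cases hex : ∃ a b, IsPair H a b
  · obtain ⟨a, b, h⟩ := hex
    exact Or.inr (exists_field_model hT h (h.span_eq_top hT hI))
  left
  have hcomm : ∀ a b, IsMax H a → IsMax H b → a * b = b * a := fun a b ha hb =>
    by_contra fun hne => hex ⟨a, b, ha, hb, hne⟩
  -- every element is a scalar
  obtain ⟨a, hscal, hset⟩ : ∃ a : V ≃ₗ[ZMod p] V, (∀ h ∈ H, ∀ v, h v = v ∨ h v = -v) ∧
      ∀ h ∈ H, h = 1 ∨ h = a := by
    by_cases h1 : ∃ h0 ∈ H, h0 ≠ 1
    · obtain ⟨h0, hh0, hne⟩ := h1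
      obtain ⟨a, ha, -⟩ := exists_isMax h0 hh0 hne
      obtain ⟨hneg, honly⟩ := eq_neg_of_commute hT hI hcomm ha
      exact ⟨a, fun h hh v => (em (h = 1)).elim (fun e => Or.inl (by rw [e]; rfl))
          (fun e => Or.inr (by rw [honly h hh e, hneg])),
        fun h hh => (em (h = 1)).imp_right (honly h hh)⟩
    · push Not at h1
      exact ⟨1, fun h hh v => Or.inl (by rw [h1 h hh]; rfl), fun h hh => Or.inl (h1 h hh)⟩
  refine ⟨?_, ?_⟩
  · obtain ⟨v, hv⟩ := exists_ne (0 : V)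
    have htop := (hI (Submodule.span (ZMod p) {v}) (fun h hh w hw => by
      rcases hscal h hh w with e | e <;> rw [e]
      · exact hw
      · exact neg_mem hw)).resolve_left (by simpa using hv)
    have h1 : finrank (ZMod p) V = 1 := by
      rw [← finrank_top (ZMod p) V, ← htop, finrank_span_singleton hv]
    rw [Module.natCard_eq_pow_finrank (K := ZMod p), Nat.card_zmod, h1, pow_one]
  · calc Nat.card H = (H : Set (V ≃ₗ[ZMod p] V)).ncard := rfl
      _ ≤ ({1, a} : Set (V ≃ₗ[ZMod p] V)).ncard := Set.ncard_le_ncard (fun h hh => hset h hh) (Set.toFinite _)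
      _ ≤ 2 := (Set.ncard_insert_le _ _).trans (by rw [Set.ncard_singleton])

theorem main {G Ω : Type*} [Group G] [Finite G] [MulAction G Ω] [FaithfulSMul G Ω] [Fintype Ω]
    (hprim : MulAction.IsPreprimitive G Ω)
    (haff : ∃ N : Subgroup G, N.Normal ∧ N ≠ ⊥ ∧ IsMulCommutative ↥N)
    (hbin : ∀ (n : ℕ) (I J : Fin n → Ω), 2 ≤ n →
      (∀ i j : Fin n, i ≠ j → ∃ g : G, g • I i = J i ∧ g • I j = J j) → ∃ g : G, ∀ i, g • I i = J i) :
    ((Fintype.card Ω).Prime ∧ ∀ ω : Ω, Nat.card ↥(MulAction.stabilizer G ω) ≤ 2) ∨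
    (∃ (F E : Type) (_ : Field F) (_ : Fintype F) (_ : Field E) (_ : Fintype E) (_ : Algebra F E) (e : Ω ≃ E),
        Module.finrank F E = 2 ∧
        ∀ σ : Equiv.Perm Ω, σ ∈ (MulAction.toPermHom G Ω).range ↔
          ∃ (a b : E) (φ : E ≃ₐ[F] E), Algebra.norm F a = 1 ∧ ∀ ω : Ω, e (σ ω) = a * φ (e ω) + b) := by
  classical
  obtain ⟨N, hN, hN1, hNc⟩ := haff
  haveI := hprim
  haveI := hN
  have hcomm : ∀ x ∈ N, ∀ y ∈ N, x * y = y * x := fun x hx y hy =>
    congrArg Subtype.val (hNc.is_comm.comm (⟨x, hx⟩ : N) ⟨y, hy⟩)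
  have hfaith : ∀ g : G, (∀ x : Ω, g • x = x) → g = 1 := fun g hg =>
    eq_of_smul_eq_smul fun x : Ω => by rw [hg, one_smul]
  have htrans : ∀ (M : Subgroup G), M.Normal → M ≠ ⊥ → MulAction.IsPretransitive M Ω := by
    intro M hM hM1
    haveI := hM
    refine MulAction.IsQuasiPreprimitive.isPretransitive_of_normal fun e => hM1 ?_
    refine (Subgroup.eq_bot_iff_forall _).2 fun g hg => hfaith g fun x => ?_
    exact (e ▸ Set.mem_univ x : x ∈ MulAction.fixedPoints M Ω) ⟨g, hg⟩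
  have hNt := htrans N hN hN1
  obtain ⟨m, hm, hm1⟩ : ∃ m ∈ N, m ≠ 1 := by
    by_contra hc
    push Not at hc
    exact hN1 ((Subgroup.eq_bot_iff_forall _).2 hc)
  obtain ⟨ω₀, -⟩ : ∃ ω : Ω, m • ω ≠ ω := by
    by_contra hc
    push Not at hc
    exact hm1 (hfaith m hc)
  have hfree : ∀ n ∈ N, ∀ n' ∈ N, n • ω₀ = n' • ω₀ → n = n' := by
    intro n hn n' hn' e
    have h1 : (n'⁻¹ * n) • ω₀ = ω₀ := by rw [mul_smul, e, inv_smul_smul]
    have h2 : n'⁻¹ * n = 1 := hfaith _ fun x => by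
      obtain ⟨k, rfl⟩ := MulAction.exists_smul_eq N ω₀ x
      show (n'⁻¹ * n) • ((k : G) • ω₀) = (k : G) • ω₀
      rw [← mul_smul, hcomm _ (mul_mem (inv_mem hn') hn) _ k.2, mul_smul, h1]
    exact (inv_mul_eq_one.1 h2).symm
  have hsurj : ∀ x : Ω, ∃ n : N, (n : G) • ω₀ = x := fun x => MulAction.exists_smul_eq N ω₀ x
  -- exponent
  haveI : Nontrivial N := (Subgroup.nontrivial_iff_ne_bot N).2 hN1
  set p := (Nat.card N).minFac with hp_def
  haveI hpF : Fact p.Prime := ⟨Nat.minFac_prime Finite.one_lt_card.ne'⟩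
  let N1 : Subgroup G :=
    { carrier := {x | x ∈ N ∧ x ^ p = 1}
      mul_mem' := fun {x y} hx hy => ⟨mul_mem hx.1 hy.1, by
        rw [Commute.mul_pow (hcomm x hx.1 y hy.1), hx.2, hy.2, one_mul]⟩
      one_mem' := ⟨one_mem _, one_pow _⟩
      inv_mem' := fun {x} hx => ⟨inv_mem hx.1, by rw [inv_pow, hx.2, inv_one]⟩ }
  have hN1n : N1.Normal := ⟨fun x hx g => ⟨hN.conj_mem x hx.1 g, by rw [conj_pow, hx.2, mul_one, mul_inv_cancel]⟩⟩
  have hexp : ∀ x ∈ N, x ^ p = 1 := by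
    obtain ⟨x, hx⟩ := exists_prime_orderOf_dvd_card' (G := N) p (Nat.minFac_dvd _)
    have hN1ne : N1 ≠ ⊥ := fun e => by
      have h1 : (x : G) ∈ N1 := ⟨x.2, by rw [← hx, ← Subgroup.orderOf_coe, pow_orderOf_eq_one]⟩
      rw [e, Subgroup.mem_bot] at h1
      rw [OneMemClass.coe_eq_one.1 h1, orderOf_one] at hx
      exact hpF.out.ne_one hx.symm
    haveI := htrans N1 hN1n hN1ne
    intro y hy
    obtain ⟨k, hk⟩ := MulAction.exists_smul_eq N1 ω₀ (y • ω₀)
    rw [hfree y hy (k : G) k.2.1 hk.symm]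
    exact k.2.2
  -- vectors
  letI : CommGroup N := { (inferInstance : Group N) with mul_comm := fun x y => hNc.is_comm.comm x y }
  haveI : Finite (Additive N) := inferInstanceAs (Finite N)
  obtain ⟨k, ⟨θ'⟩⟩ := exists_coords p (A := Additive N) fun x => by
    apply Additive.toMul.injective
    rw [toMul_nsmul, toMul_zero]
    exact Subtype.ext (hexp _ (Additive.toMul x).2)
  let θ : N ≃ (Fin k → ZMod p) := Additive.ofMul.trans θ'.toEquiv
  have hθ : ∀ x y : N, θ (x * y) = θ x + θ y := fun x y => map_add θ' _ _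
  have hθ1 : θ 1 = 0 := map_zero θ'
  haveI : Nontrivial (Fin k → ZMod p) := θ.symm.nontrivial
  let eN : N ≃ Ω := Equiv.ofBijective (fun n : N => (n : G) • ω₀)
    ⟨fun x y e => Subtype.ext (hfree _ x.2 _ y.2 e), hsurj⟩
  let π : Ω ≃ (Fin k → ZMod p) := eN.symm.trans θ
  have hπn : ∀ n : N, π ((n : G) • ω₀) = θ n := fun n => congrArg θ (eN.symm_apply_apply n)
  have hπ0 : π ω₀ = 0 := by
    have := hπn 1
    rwa [OneMemClass.coe_one, one_smul, hθ1] at this
  have hπadd : ∀ (n : N) (x : Ω), π ((n : G) • x) = θ n + π x := by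
    intro n x
    obtain ⟨n', rfl⟩ := hsurj x
    rw [← mul_smul, hπn n', show (n : G) * n' = ((n * n' : N) : G) from rfl, hπn, hθ]
  let S := MulAction.stabilizer G ω₀
  let cj : S → (Fin k → ZMod p) →+ (Fin k → ZMod p) := fun g =>
    AddMonoidHom.mk' (fun v => θ ⟨(g : G) * (θ.symm v : G) * (g : G)⁻¹, hN.conj_mem _ (θ.symm v).2 _⟩)
      fun v w => by
        rw [← hθ]
        refine congrArg θ (Subtype.ext ?_)
        have e : θ.symm (v + w) = θ.symm v * θ.symm w := by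
          apply θ.injective
          rw [hθ, θ.apply_symm_apply, θ.apply_symm_apply, θ.apply_symm_apply]
        rw [e]
        show (g : G) * ((θ.symm v : G) * (θ.symm w : G)) * (g : G)⁻¹ = _
        rw [Subgroup.coe_mul]
        group
  have hcj : ∀ (g : S) (x : Ω), cj g (π x) = π ((g : G) • x) := by
    intro g x
    obtain ⟨n, rfl⟩ := hsurj x
    rw [hπn]
    show θ ⟨(g : G) * (θ.symm (θ n) : G) * (g : G)⁻¹, _⟩ = _
    have h1 : (g : G) • ω₀ = ω₀ := g.2
    have h2 : (g : G) • ((n : G) • ω₀) = ((g : G) * (n : G) * (g : G)⁻¹) • ω₀ := by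
      rw [mul_smul, mul_smul]
      conv_rhs => arg 2; arg 2; rw [← h1, inv_smul_smul]
    rw [h2]
    exact ((congrArg θ (Subtype.ext (by rw [θ.symm_apply_apply]))).trans
      (hπn ⟨(g : G) * (n : G) * (g : G)⁻¹, hN.conj_mem _ n.2 _⟩).symm)
  have hcjv : ∀ (g : S) (v : Fin k → ZMod p), cj g v = π ((g : G) • π.symm v) := fun g v => by
    rw [← hcj, π.apply_symm_apply]
  let ρ : S →* ((Fin k → ZMod p) ≃ₗ[ZMod p] (Fin k → ZMod p)) :=
    { toFun := fun g => LinearEquiv.ofLinearMap ((cj g).toZModLinearMap p) ((cj g⁻¹).toZModLinearMap p)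
        (LinearMap.ext fun v => by
          show cj g (cj g⁻¹ v) = v
          rw [hcjv, hcjv, π.symm_apply_apply, Subgroup.coe_inv, smul_inv_smul, π.apply_symm_apply])
        (LinearMap.ext fun v => by
          show cj g⁻¹ (cj g v) = v
          rw [hcjv, hcjv, π.symm_apply_apply, Subgroup.coe_inv, inv_smul_smul, π.apply_symm_apply])
      map_one' := LinearEquiv.ext fun v => by
        show cj 1 v = v
        rw [hcjv, Subgroup.coe_one, one_smul, π.apply_symm_apply]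
      map_mul' := fun g g' => LinearEquiv.ext fun v => by
        show cj (g * g') v = cj g (cj g' v)
        rw [hcjv, hcjv g', hcjv g, π.symm_apply_apply, Subgroup.coe_mul, mul_smul] }
  have hρ : ∀ (g : S) (x : Ω), ρ g (π x) = π ((g : G) • x) := hcj
  have hT : Trans ρ.range := by
    intro δ B hB
    rcases B.eq_empty_or_nonempty with rfl | hne
    · exact ⟨1, one_mem _, by simp⟩
    haveI : Fintype B := Fintype.ofFinite B
    let ι := Option B
    let eι := (Fintype.equivFin ι).symm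
    let I0 : ι → Ω := fun o => o.elim ω₀ fun b => π.symm b.1
    let J0 : ι → Ω := fun o => o.elim ω₀ fun b => π.symm (b.1 + δ)
    have hn : 2 ≤ Fintype.card ι := by
      obtain ⟨b, hb⟩ := hne
      have : 0 < Fintype.card B := Fintype.card_pos_iff.2 ⟨⟨b, hb⟩⟩
      rw [Fintype.card_option]; omega
    have hb : ∀ b : B, ∃ g : G, g • ω₀ = ω₀ ∧ g • π.symm b.1 = π.symm (b.1 + δ) := by
      intro b
      obtain ⟨_, ⟨g, rfl⟩, hg⟩ := hB b.1 b.2
      refine ⟨g, g.2, π.injective ?_⟩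
      rw [← hρ, π.apply_symm_apply, π.apply_symm_apply, hg]
    have key : ∀ o o' : ι, o ≠ o' → ∃ g : G, g • I0 o = J0 o ∧ g • I0 o' = J0 o' := by
      rintro (_ | b) (_ | b') hoo
      · exact absurd rfl hoo
      · exact hb b'
      · obtain ⟨g, h1, h2⟩ := hb b
        exact ⟨g, h2, h1⟩
      · have hshift : ∀ c : B, ((θ.symm δ : N) : G) • π.symm c.1 = π.symm (c.1 + δ) := fun c => by
          apply π.injective
          rw [hπadd, θ.apply_symm_apply, π.apply_symm_apply, π.apply_symm_apply, add_comm]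
        exact ⟨_, hshift b, hshift b'⟩
    obtain ⟨g, hg⟩ := hbin (Fintype.card ι) (I0 ∘ eι) (J0 ∘ eι) hn
      fun i j hij => key _ _ (eι.injective.ne hij)
    have hg' : ∀ o, g • I0 o = J0 o := fun o => by simpa using hg (eι.symm o)
    refine ⟨ρ ⟨g, hg' none⟩, ⟨_, rfl⟩, fun b hb => ?_⟩
    have := congrArg π (hg' (some ⟨b, hb⟩))
    rw [show I0 (some ⟨b, hb⟩) = π.symm b from rfl] at this
    rw [show b = π (π.symm b) from (π.apply_symm_apply b).symm, hρ, π.apply_symm_apply]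
    rw [show J0 (some ⟨b, hb⟩) = π.symm (b + δ) from rfl, π.apply_symm_apply] at this
    exact this
  have hdecomp : ∀ g : G, ∃ (n : N) (s : S), g = (n : G) * (s : G) := fun g => by
    obtain ⟨n, hn⟩ := hsurj (g • ω₀)
    refine ⟨n, ⟨(n : G)⁻¹ * g, ?_⟩, by group⟩
    show ((n : G)⁻¹ * g) • ω₀ = ω₀
    rw [mul_smul, ← hn, inv_smul_smul]
  have hI : Irred ρ.range := by
    intro W hW
    let M : Subgroup G :=
      { carrier := {x | ∃ hx : x ∈ N, θ ⟨x, hx⟩ ∈ W}
        mul_mem' := fun {x y} hx hy => ⟨mul_mem hx.1 hy.1, by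
          rw [show (⟨x * y, _⟩ : N) = ⟨x, hx.1⟩ * ⟨y, hy.1⟩ from rfl, hθ]; exact add_mem hx.2 hy.2⟩
        one_mem' := ⟨one_mem _, by
          rw [show (⟨1, _⟩ : N) = 1 from rfl, hθ1]; exact zero_mem _⟩
        inv_mem' := fun {x} hx => ⟨inv_mem hx.1, by
          have h1 : θ ⟨x⁻¹, inv_mem hx.1⟩ + θ ⟨x, hx.1⟩ = 0 := by
            rw [← hθ, show (⟨x⁻¹, inv_mem hx.1⟩ : N) * ⟨x, hx.1⟩ = 1 from
              Subtype.ext (inv_mul_cancel x), hθ1]
          rw [eq_neg_of_add_eq_zero_left h1]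
          exact neg_mem hx.2⟩ }
    by_cases hM : M = ⊥
    · refine Or.inl ((Submodule.eq_bot_iff _).2 fun v hv => ?_)
      have h1 : ((θ.symm v : N) : G) ∈ M := ⟨(θ.symm v).2, by rwa [Subtype.coe_eta, θ.apply_symm_apply]⟩
      rw [hM, Subgroup.mem_bot] at h1
      rw [← θ.apply_symm_apply v, OneMemClass.coe_eq_one.1 h1, hθ1]
    · have hMn : M.Normal := ⟨fun x hx g => by
        obtain ⟨n, s, rfl⟩ := hdecomp g
        refine ⟨hN.conj_mem x hx.1 _, ?_⟩
        have h2 := hW (ρ s) ⟨s, rfl⟩ _ hx.2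
        have h3 : ρ s (θ ⟨x, hx.1⟩) = θ ⟨(s : G) * x * (s : G)⁻¹, hN.conj_mem x hx.1 _⟩ := by
          show θ ⟨(s : G) * (θ.symm (θ ⟨x, hx.1⟩) : G) * (s : G)⁻¹, _⟩ = _
          exact congrArg θ (Subtype.ext (by rw [θ.symm_apply_apply]))
        rw [h3] at h2
        convert h2 using 3
        rw [show (n : G) * s * x * ((n : G) * s)⁻¹ = (n : G) * ((s : G) * x * (s : G)⁻¹) * (n : G)⁻¹ by group,
          hcomm _ n.2 _ (hN.conj_mem x hx.1 _), mul_inv_cancel_right]⟩
      haveI := htrans M hMn hM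
      refine Or.inr (eq_top_iff.2 fun v _ => ?_)
      obtain ⟨k', hk'⟩ := MulAction.exists_smul_eq M ω₀ (((θ.symm v : N) : G) • ω₀)
      have h1 := hfree _ (θ.symm v).2 (k' : G) k'.2.1 hk'.symm
      have h2 := k'.2.2
      rw [show (⟨(k' : G), k'.2.1⟩ : N) = θ.symm v from Subtype.ext h1.symm, θ.apply_symm_apply] at h2
      exact h2
  have hρinj : Function.Injective ρ := fun g g' e => Subtype.ext <| by
    refine eq_of_smul_eq_smul fun x : Ω => π.injective ?_
    rw [← hρ, ← hρ, e]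
  rcases classify hT hI with ⟨hV, hH⟩ | ⟨F, E, iF, fF, iE, fE, iA, e, hrank, hto, hfrom⟩
  · left
    refine ⟨?_, fun ω => ?_⟩
    · rw [← Nat.card_eq_fintype_card, Nat.card_congr π, hV]
      exact hpF.out
    · obtain ⟨n, rfl⟩ := hsurj ω
      rw [Nat.card_congr (MulAction.stabilizerEquivStabilizer (a := ω₀) (g := (n : G)) rfl).symm.toEquiv,
        Nat.card_congr (MonoidHom.ofInjective hρinj).toEquiv]
      exact hH
  right
  refine ⟨F, E, iF, fF, iE, fE, iA, π.trans e.toEquiv, hrank, fun τ => ⟨?_, ?_⟩⟩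
  · rintro ⟨g, rfl⟩
    obtain ⟨n, s, rfl⟩ := hdecomp g
    obtain ⟨c, φ, hc, hφ⟩ := hto (ρ s) ⟨s, rfl⟩
    refine ⟨c, e (θ n), φ, hc, fun x => ?_⟩
    show e (π (((n : G) * (s : G)) • x)) = c * φ (e (π x)) + e (θ n)
    rw [mul_smul, hπadd, map_add, ← hρ, hφ, add_comm]
  · rintro ⟨c, b, φ, hc, hτ⟩
    obtain ⟨_, ⟨s, rfl⟩, hs⟩ := hfrom c φ hc
    refine ⟨((θ.symm (e.symm b) : N) : G) * (s : G), Equiv.ext fun x => (π.trans e.toEquiv).injective ?_⟩
    rw [hτ x]
    show e (π ((((θ.symm (e.symm b) : N) : G) * (s : G)) • x)) = _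
    rw [mul_smul, hπadd, map_add, θ.apply_symm_apply, e.apply_symm_apply, ← hρ, hs, add_comm]
    rfl

end Cfsg.Agent.H13.Binary
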