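import Cfsg.Agent.H13.Binary.Cover

/-!
Outside the plane of a pair every maximal element commutes with the whole plane: there are no
three-dimensional configurations.
-/

set_option autoImplicit false
set_option linter.unusedSectionVars false
set_option linter.style.haveILetI false

namespace Cfsg.Agent.H13.Binary

open Module

variable {p : ℕ} [Fact p.Prime] {V : Type*} [AddCommGroup V] [Module (ZMod p) V] [Finite V]
  {H : Subgroup (V ≃ₗ[ZMod p] V)}

theorem card_submodule (S : Submodule (ZMod p) V) : Nat.card S = p ^ finrank (ZMod p) S := by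
  rw [Module.natCard_eq_pow_finrank (K := ZMod p), Nat.card_zmod]

variable (hT : Trans H)
include hT

theorem IsPair.sup_eq_span {a b e e' : V ≃ₗ[ZMod p] V} (h : IsPair H a b) (he : InPlane H a b e)
    (he' : InPlane H a b e') (hne : e' ≠ e) : im e ⊔ im e' = span a b := by
  haveI : Module.Finite (ZMod p) V := Module.Finite.of_finite
  refine Submodule.eq_of_le_of_finrank_eq (sup_le (he.im_le_span hT h) (he'.im_le_span hT h)) ?_
  have h1 := Submodule.finrank_sup_add_finrank_inf_eq (im e) (im e')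
  rw [show im e ⊓ im e' = ⊥ from (Submodule.eq_bot_iff _).2 fun t ⟨t1, t2⟩ =>
    he.max.disjoint_im hT he'.max hne t1 t2, finrank_bot] at h1
  have h2 := he.finrank_im hT h
  have h3 := he'.finrank_im hT h
  have h4 := (h.finrank_span hT).1
  omega

/-- In characteristic two the members of a plane pairwise do not commute. -/
theorem InPlane.eq_of_comm (hp : p = 2) {a b e e' : V ≃ₗ[ZMod p] V} (he : InPlane H a b e)
    (he' : InPlane H a b e') (h : IsPair H a b) (hc : e * e' = e' * e) : e' = e := by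
  by_contra hne
  haveI : Module.Finite (ZMod p) V := Module.Finite.of_finite
  have hfx : fx e' = fx e := by
    refine Submodule.eq_of_le_of_finrank_eq ?_ (by rw [he'.finrank_fx hT h, he.finrank_fx hT h])
    rw [← he'.fx_eq_sup hT hp h]
    exact sup_le he.le (he.max.im_le_fx hT he'.max hc hne)
  by_cases ha : a * e = e * a
  · exact hne ((IsPair.mk he.max h.snd fun hb => he.ne_comm hT h ha hb.symm).eq_of_fx_eq hT hp
      he'.max hfx)
  · exact hne ((IsPair.mk he.max h.fst (Ne.symm ha)).eq_of_fx_eq hT hp he'.max hfx)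

/-- A translation inside the span by a vector of the axis is trivial in characteristic two. -/
theorem IsPair.eq_zero_of_translate (hp : p = 2) {a b h : V ≃ₗ[ZMod p] V} (hab : IsPair H a b)
    (hh : h ∈ H) {x ν : V} (hx : x ∈ span a b) (hν : ν ∈ axis a b) (hxν : h x = x + ν) : ν = 0 := by
  obtain ⟨w, -, hw⟩ := hT.witness ν
  have hr : a * b ∈ H := mul_mem hab.fst.mem hab.snd.mem
  have hfix : ∀ c ∈ axis a b, ∀ k : ℕ, ((a * b) ^ k) c = c := by
    intro c hc k
    induction k with
    | zero => rfl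
    | succ k ih => rw [pow_succ', mul_apply, ih, mul_apply, mem_fx.1 hc.2, mem_fx.1 hc.1]
  have horb : ∀ k : ℕ, w (((a * b) ^ k) x) = ((a * b) ^ k) x + ν := fun k =>
    hw ((a * b) ^ k * h * ((a * b) ^ k)⁻¹) (mul_mem (mul_mem (pow_mem hr k) hh)
      (inv_mem (pow_mem hr k))) _ (by
        rw [mul_apply, mul_apply, inv_apply_apply, hxν, map_add, hfix ν hν k])
  have hspan : ∀ k : ℕ, ((a * b) ^ k) x ∈ span a b := by
    intro k
    induction k with
    | zero => exact hx
    | succ k ih =>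
      rw [pow_succ', mul_apply,
        show (a * b) (((a * b) ^ k) x) = ((a * b) (((a * b) ^ k) x) - ((a * b) ^ k) x) +
          ((a * b) ^ k) x by abel]
      exact add_mem (hab.sub_mem_span hT _) ih
  have hS : ∑ k ∈ Finset.range (orderOf (a * b)), ((a * b) ^ k) x = 0 := by
    refine (Submodule.eq_bot_iff _).1 (hab.span_inf_axis hT) _
      ⟨Submodule.sum_mem _ fun k _ => hspan k, hab.fix_mul hT ?_⟩
    rw [map_sum]
    have e1 := Finset.sum_range_succ' (fun k => ((a * b) ^ k) x) (orderOf (a * b))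
    rw [Finset.sum_range_succ, pow_orderOf_eq_one, pow_zero] at e1
    rw [add_right_cancel e1]
    exact Finset.sum_congr rfl fun k _ => by rw [pow_succ']; rfl
  have h2 := congrArg w hS
  rw [map_zero, map_sum, Finset.sum_congr rfl fun k _ => horb k, Finset.sum_add_distrib, hS, zero_add,
    Finset.sum_const, Finset.card_range] at h2
  refine nsmul_eq_zero_of_not_dvd (p := p) (fun hd => ?_) h2
  exact Nat.not_even_iff_odd.2 (hab.odd_orderOf hT hp)
    (even_iff_two_dvd.2 ((congrArg (· ∣ _) hp).mp hd))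

omit hT in
/-- The data of a third maximal element outside the plane. -/
structure Third (H : Subgroup (V ≃ₗ[ZMod p] V)) (a b f i : V ≃ₗ[ZMod p] V) : Prop where
  pair : IsPair H a b
  max : IsMax H f
  out : ¬ InPlane H a b f
  memI : InPlane H a b i
  comm : f * i = i * f
  ncomm : ∀ j, InPlane H a b j → j ≠ i → f * j ≠ j * f
  inf_span : fx f ⊓ span a b = im i
  dim : finrank (ZMod p) (im f) = finrank (ZMod p) (im a)

theorem IsPair.exists_third {a b f e : V ≃ₗ[ZMod p] V} (h : IsPair H a b) (hf : IsMax H f)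
    (hout : ¬ InPlane H a b f) (he : InPlane H a b e) (hfe : f * e ≠ e * f) :
    ∃ i, Third H a b f i := by
  haveI : Module.Finite (ZMod p) V := Module.Finite.of_finite
  have hd : finrank (ZMod p) (im f) = finrank (ZMod p) (im a) := by
    rw [hf.finrank_im_eq hT he.max hfe, he.finrank_im hT h]
  have hne : fx f ⊓ span a b ≠ ⊥ := by
    intro e0
    have h1 := Submodule.finrank_sup_add_finrank_inf_eq (fx f) (span a b)
    rw [e0, finrank_bot] at h1
    have h2 := Submodule.finrank_le (fx f ⊔ span a b)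
    have h3 := (h.finrank_span hT).1
    have h4 := finrank_fx_add_im (p := p) f
    obtain ⟨t, ht, ht0⟩ := h.fst.exists_im_ne_zero
    have : 0 < finrank (ZMod p) (im a) := Submodule.one_le_finrank_iff.2 fun e => ht0 (by
      rw [e] at ht; exact (Submodule.mem_bot _).1 ht)
    omega
  obtain ⟨x, ⟨hxf, hxs⟩, hx0⟩ := (Submodule.ne_bot_iff _).1 hne
  obtain ⟨i, hi, hxi⟩ := h.cover hT hxs hx0
  have hfi := hf.commute_of_mem hT hi.max hxi hxf hx0
  have hif : i ≠ f := fun e => hout (e ▸ hi)
  have huniq : ∀ j, InPlane H a b j → f * j = j * f → j = i := by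
    intro j hj hfj
    by_contra hji
    obtain ⟨t, ht, ht0⟩ := he.max.exists_im_ne_zero
    refine hfe (hf.commute_of_mem hT he.max ht ?_ ht0)
    have h1 : t ∈ im i ⊔ im j := (h.sup_eq_span hT hi hj hji).ge (he.im_le_span hT h ht)
    exact sup_le (hf.im_le_fx hT hi.max hfi hif)
      (hf.im_le_fx hT hj.max hfj fun e => hout (e ▸ hj)) h1
  refine ⟨i, h, hf, hout, hi, hfi, fun j hj hji e' => hji (huniq j hj e'), le_antisymm ?_ ?_, hd⟩
  · rintro y ⟨hyf, hys⟩
    by_cases hy0 : y = 0
    · rw [hy0]; exact zero_mem _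
    obtain ⟨j, hj, hyj⟩ := h.cover hT hys hy0
    rw [← huniq j hj (hf.commute_of_mem hT hj.max hyj hyf hy0)]
    exact hyj
  · exact le_inf (hf.im_le_fx hT hi.max hfi hif) (hi.im_le_span hT h)

theorem Third.disjoint_span {a b f i : V ≃ₗ[ZMod p] V} (h : Third H a b f i) {t : V}
    (ht : t ∈ im f) (hs : t ∈ span a b) : t = 0 := by
  by_contra h0
  exact h.out (h.pair.inPlane_of_mem hT h.max ht hs h0)

theorem Third.pairOf {a b f i j : V ≃ₗ[ZMod p] V} (h : Third H a b f i) (hj : InPlane H a b j)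
    (hji : j ≠ i) : IsPair H f j :=
  ⟨h.max, hj.max, h.ncomm j hj hji⟩

theorem Third.finrank_space {a b f i : V ≃ₗ[ZMod p] V} (h : Third H a b f i) :
    Module.finrank (ZMod p) (span a b ⊔ im f : Submodule (ZMod p) V) =
      3 * Module.finrank (ZMod p) (im a) ∧
    Module.finrank (ZMod p) (im i ⊔ im f : Submodule (ZMod p) V) =
      2 * Module.finrank (ZMod p) (im a) := by
  haveI : Module.Finite (ZMod p) V := Module.Finite.of_finite
  have h1 := Submodule.finrank_sup_add_finrank_inf_eq (span a b) (im f)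
  rw [show span a b ⊓ im f = ⊥ from (Submodule.eq_bot_iff _).2 fun t ⟨t1, t2⟩ =>
    h.disjoint_span hT t2 t1, finrank_bot] at h1
  have h2 := Submodule.finrank_sup_add_finrank_inf_eq (im i) (im f)
  rw [show im i ⊓ im f = ⊥ from (Submodule.eq_bot_iff _).2 fun t ⟨t1, t2⟩ =>
    h.disjoint_span hT t2 (h.memI.im_le_span hT h.pair t1), finrank_bot] at h2
  have h3 := (h.pair.finrank_span hT).1
  have h4 := h.memI.finrank_im hT h.pair
  have h5 := h.dim
  omega

/-- Outside the exceptional plane every vector is covered by a plane through the third element. -/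
theorem Third.cover {a b f i : V ≃ₗ[ZMod p] V} (h : Third H a b f i) {δ : V}
    (hδ : δ ∈ span a b ⊔ im f) (hout : δ ∉ im i ⊔ im f) :
    ∃ j, InPlane H a b j ∧ j ≠ i ∧ ∃ e, InPlane H f j e ∧ δ ∈ im e ∧
      im e ≤ span a b ⊔ im f := by
  obtain ⟨x, hx, t, ht, rfl⟩ := Submodule.mem_sup.1 hδ
  by_cases hx0 : x = 0
  · exact absurd (by rw [hx0, zero_add]; exact Submodule.mem_sup_right ht) hout
  obtain ⟨j, hj, hxj⟩ := h.pair.cover hT hx hx0
  have hji : j ≠ i := fun e => hout (Submodule.add_mem_sup (e ▸ hxj) ht)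
  have hp0 := h.pairOf hT hj hji
  obtain ⟨e, he, hxe⟩ := hp0.cover hT
    (by rw [add_comm]; exact Submodule.add_mem_sup ht hxj : x + t ∈ span f j)
    (fun e0 => hx0 (by
      have : x ∈ im f := by rw [eq_neg_of_add_eq_zero_left e0]; exact neg_mem ht
      exact h.disjoint_span hT this hx))
  exact ⟨j, hj, hji, e, he, hxe, (he.im_le_span hT hp0).trans
    (sup_le le_sup_right ((hj.im_le_span hT h.pair).trans le_sup_left))⟩

/-- A line outside a subspace `L` of the exceptional plane is a displacement of a maximal element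
inside that plane which does not commute with the second third element. -/
theorem Third.second {a b f i : V ≃ₗ[ZMod p] V} (h : Third H a b f i) :
    ∃ (L : Submodule (ZMod p) V) (m : V ≃ₗ[ZMod p] V), IsMax H m ∧ im m ≤ span a b ⊔ im f ∧
      L ≤ im i ⊔ im f ∧ Module.finrank (ZMod p) L = Module.finrank (ZMod p) (im a) ∧
      ∀ δ ∈ im i ⊔ im f, δ ∉ L → ∃ e, IsMax H e ∧ δ ∈ im e ∧ im e ≤ im i ⊔ im f ∧
        Module.finrank (ZMod p) (im e) = Module.finrank (ZMod p) (im a) ∧
        (p = 2 → e * m ≠ m * e) := by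
  haveI : Module.Finite (ZMod p) V := Module.Finite.of_finite
  obtain ⟨j, hj, hji⟩ : ∃ j, InPlane H a b j ∧ j ≠ i := by
    by_cases hai : a = i
    · exact ⟨b, InPlane.right hT h.pair, hai ▸ h.pair.ne⟩
    · exact ⟨a, InPlane.left hT h.pair, hai⟩
  obtain ⟨u, hu, hu0⟩ := h.memI.max.exists_im_ne_zero
  obtain ⟨v, hv, hv0⟩ := hj.max.exists_im_ne_zero
  have huv : u + v ≠ 0 := fun e0 => hu0 (h.memI.max.disjoint_im hT hj.max hji hu (by
    rw [eq_neg_of_add_eq_zero_left e0]; exact neg_mem hv))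
  obtain ⟨m, hm, hmuv⟩ := h.pair.cover hT
    (add_mem (h.memI.im_le_span hT h.pair hu) (hj.im_le_span hT h.pair hv)) huv
  have hmi : m ≠ i := fun e => hv0 (h.memI.max.disjoint_im hT hj.max hji (by
    rw [show v = (u + v) - u by abel]; exact sub_mem (e ▸ hmuv) hu) hv)
  have hmj : m ≠ j := fun e => hu0 (h.memI.max.disjoint_im hT hj.max hji hu (by
    rw [show u = (u + v) - v by abel]; exact sub_mem (e ▸ hmuv) hv))
  have hfj := h.pairOf hT hj hji
  have hmout : ¬ InPlane H f j m := fun hm2 => by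
    obtain ⟨t, ht, ht0⟩ := h.max.exists_im_ne_zero
    have h1 : im j ⊔ im m = span f j := hfj.sup_eq_span hT (InPlane.right hT hfj) hm2 hmj
    refine ht0 (h.disjoint_span hT ht ?_)
    rw [← h.pair.sup_eq_span hT hj hm hmj, h1]
    exact Submodule.mem_sup_left ht
  obtain ⟨l, hl⟩ := hfj.exists_third hT hm.max hmout (InPlane.left hT hfj)
    (fun e => h.ncomm m hm hmi e.symm)
  have hZ : span f j ⊔ im m = span a b ⊔ im f := by
    rw [← h.pair.sup_eq_span hT hj hm hmj]
    show im f ⊔ im j ⊔ im m = im j ⊔ im m ⊔ im f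
    rw [sup_assoc, sup_comm]
  refine ⟨(im i ⊔ im f) ⊓ (im l ⊔ im m), m, hm.max, (hm.im_le_span hT h.pair).trans le_sup_left,
    inf_le_left, ?_, ?_⟩
  · have h1 := Submodule.finrank_sup_add_finrank_inf_eq (im i ⊔ im f) (im l ⊔ im m)
    have h2 : (im i ⊔ im f) ⊔ (im l ⊔ im m) = span a b ⊔ im f := by
      refine le_antisymm (sup_le (sup_le ((h.memI.im_le_span hT h.pair).trans le_sup_left)
        le_sup_right) (sup_le ?_ ((hm.im_le_span hT h.pair).trans le_sup_left))) (sup_le ?_ ?_)
      · rw [← hZ]; exact (hl.memI.im_le_span hT hfj).trans le_sup_left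
      · rw [← h.pair.sup_eq_span hT h.memI hm hmi]
        exact sup_le (le_sup_left.trans le_sup_left) (le_sup_right.trans le_sup_right)
      · exact le_sup_right.trans le_sup_left
    have h3 := h.finrank_space hT
    have h4 := hl.finrank_space hT
    have h5 := h.dim
    rw [h2] at h1
    omega
  intro δ hδ hδL
  have hδZ : δ ∈ span a b ⊔ im f :=
    sup_le ((h.memI.im_le_span hT h.pair).trans le_sup_left) le_sup_right hδ
  obtain ⟨k, hk, hkl, e, he, hδe, heZ⟩ := hl.cover hT (δ := δ) (hZ.ge hδZ)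
    (fun h' => hδL ⟨hδ, h'⟩)
  rw [hZ] at heZ
  have hδ0 : δ ≠ 0 := fun e0 => hδL (e0 ▸ zero_mem _)
  have hmk := hl.pairOf hT hk hkl
  have heW : im e ≤ im i ⊔ im f := by
    intro t ht
    by_contra htW
    obtain ⟨j', hj', hj'i, e', he', hte', -⟩ := h.cover hT (heZ ht) htW
    have hee : e' = e := he.max.eq_of_im hT he'.max ht hte' fun e0 => htW (e0 ▸ zero_mem _)
    subst hee
    obtain ⟨uf, huf, uj, huj, huδ⟩ :=
      Submodule.mem_sup.1 (he'.im_le_span hT (h.pairOf hT hj' hj'i) hδe)
    obtain ⟨ui, hui, uf', huf', huδ'⟩ := Submodule.mem_sup.1 hδ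
    have hd : uj - ui = uf' - uf := by
      rw [show uj = δ - uf by rw [← huδ]; abel, show ui = δ - uf' by rw [← huδ']; abel]; abel
    have h0 : uj - ui = 0 := h.disjoint_span hT (hd ▸ sub_mem huf' huf)
      (sub_mem (hj'.im_le_span hT h.pair huj) (h.memI.im_le_span hT h.pair hui))
    have huj0 : uj = 0 := hj'.max.disjoint_im hT h.memI.max (Ne.symm hj'i) huj
      ((sub_eq_zero.1 h0) ▸ hui)
    have : e' = f := h.max.eq_of_im hT he'.max (by rw [← huδ, huj0, add_zero]; exact huf) hδe hδ0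
    exact htW (Submodule.mem_sup_right (this ▸ ht))
  refine ⟨e, he.max, hδe, heW, ?_, fun hp hcm => ?_⟩
  · rw [he.finrank_im hT hmk, ← h.pair.fst.finrank_im_eq hT h.pair.snd h.pair.ne_comm |>.trans
      (h.pair.fst.finrank_im_eq hT h.pair.snd h.pair.ne_comm).symm, hm.finrank_im hT h.pair]
  · have hem : e = m := (InPlane.left hT hmk).eq_of_comm hT hp he hmk hcm.symm
    subst hem
    obtain ⟨s, hs, hs0⟩ := hm.max.exists_im_ne_zero
    obtain ⟨si, hsi, sf, hsf, hsum⟩ := Submodule.mem_sup.1 (heW hs)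
    have : sf = 0 := h.disjoint_span hT hsf (by
      rw [show sf = s - si by rw [← hsum]; abel]
      exact sub_mem (hm.im_le_span hT h.pair hs) (h.memI.im_le_span hT h.pair hsi))
    rw [this, add_zero] at hsum
    exact hmi (h.memI.max.eq_of_im hT hm.max (hsum ▸ hsi) hs hs0)

theorem Third.false_of_two (hp : p = 2) {a b f i : V ≃ₗ[ZMod p] V} (h : Third H a b f i) : False := by
  haveI : Module.Finite (ZMod p) V := Module.Finite.of_finite
  obtain ⟨L, m, hm, hmZ, hLW, hLd, hcov⟩ := h.second hT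
  have hif : i ≠ f := fun e => h.out (e ▸ h.memI)
  have hWi : im i ⊔ im f ≤ fx i := sup_le (h.memI.max.im_le_fx_self hT hp)
    (h.memI.max.im_le_fx hT h.max h.comm.symm hif.symm)
  have hWf : im i ⊔ im f ≤ fx f := sup_le (h.max.im_le_fx hT h.memI.max h.comm hif)
    (h.max.im_le_fx_self hT hp)
  -- the covering elements fix the plane
  have hWe : ∀ e, IsMax H e → ∀ t ∈ im e, t ≠ 0 → t ∈ im i ⊔ im f → im i ⊔ im f ≤ fx e := by
    intro e he t ht ht0 htW
    refine sup_le ?_ ?_
    · rcases eq_or_ne i e with rfl | hh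
      · exact he.im_le_fx_self hT hp
      · exact he.im_le_fx hT h.memI.max (h.memI.max.commute_of_mem hT he ht (hWi htW) ht0).symm hh
    · rcases eq_or_ne f e with rfl | hh
      · exact he.im_le_fx_self hT hp
      · exact he.im_le_fx hT h.max (h.max.commute_of_mem hT he ht (hWf htW) ht0).symm hh
  have hncj : ∀ j, InPlane H a b j → j ≠ i → ∀ e, IsMax H e → im e ≤ im i ⊔ im f →
      e * m ≠ m * e → e * j ≠ j * e := by
    intro j hj hji e he heW hem hc
    obtain ⟨t, ht, ht0⟩ := he.exists_im_ne_zero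
    have hW := hWe e he t ht ht0 (heW ht)
    obtain ⟨s, hs, hs0⟩ := hm.exists_im_ne_zero
    refine hem (he.commute_of_mem hT hm hs ?_ hs0)
    refine sup_le ?_ (le_sup_right.trans hW) (hmZ hs)
    rw [← h.pair.sup_eq_span hT h.memI hj hji]
    refine sup_le (le_sup_left.trans hW) ?_
    rcases eq_or_ne j e with rfl | hh
    · exact he.im_le_fx_self hT hp
    · exact he.im_le_fx hT hj.max hc hh
  -- the members other than `i` fix `L`
  have hLj : ∀ j, InPlane H a b j → j ≠ i → L ≤ fx j := by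
    intro j hj hji
    have hle : (im i ⊔ im f) ⊓ fx j ≤ L := by
      rintro δ ⟨hδ, hδj⟩
      by_contra hL
      obtain ⟨e, he, hδe, heW, -, hem⟩ := hcov δ hδ hL
      exact hncj j hj hji e he heW (hem hp)
        (hj.max.commute_of_mem hT he hδe hδj fun e0 => hL (e0 ▸ zero_mem _)).symm
    have heq : (im i ⊔ im f) ⊓ fx j = L := by
      refine Submodule.eq_of_le_of_finrank_le hle ?_
      have h1 := Submodule.finrank_sup_add_finrank_inf_eq (im i ⊔ im f) (fx j)
      have h2 := Submodule.finrank_le ((im i ⊔ im f) ⊔ fx j)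
      have h3 := finrank_fx_add_im (p := p) j
      have h4 := hj.finrank_im hT h.pair
      have h5 := (h.finrank_space hT).2
      omega
    exact heq ▸ inf_le_right
  obtain ⟨j, hj, hji⟩ : ∃ j, InPlane H a b j ∧ j ≠ i := by
    by_cases hai : a = i
    · exact ⟨b, InPlane.right hT h.pair, hai ▸ h.pair.ne⟩
    · exact ⟨a, InPlane.left hT h.pair, hai⟩
  have hij : IsPair H i j := ⟨h.memI.max, hj.max, fun hc => hji (h.memI.eq_of_comm hT hp hj h.pair hc)⟩
  have hinfL : im i ⊓ L = ⊥ := (Submodule.eq_bot_iff _).2 fun t ⟨t1, t2⟩ =>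
    (Submodule.eq_bot_iff _).1 (hij.symm.fst.inf_eq_bot hT h.memI.max hij.symm.ne_comm) t
      ⟨t1, hLj j hj hji t2⟩
  have hsupL : im i ⊔ L = im i ⊔ im f := by
    refine Submodule.eq_of_le_of_finrank_eq (sup_le le_sup_left hLW) ?_
    have h1 := Submodule.finrank_sup_add_finrank_inf_eq (im i) L
    rw [hinfL, finrank_bot] at h1
    have h2 := h.memI.finrank_im hT h.pair
    have h5 := (h.finrank_space hT).2
    omega
  obtain ⟨x, hx, hx0⟩ := hj.max.exists_im_ne_zero
  let D := {δ : V // δ ∈ im i ⊔ im f ∧ δ ∉ L}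
  choose E hE using fun δ : D => hcov δ.1 δ.2.1 δ.2.2
  have hdec : ∀ s : V, ∃ u : im i, s ∈ im i ⊔ im f → s - u.1 ∈ L := fun s => by
    by_cases hs : s ∈ im i ⊔ im f
    · obtain ⟨u, hu, l, hl, hul⟩ := Submodule.mem_sup.1 (hsupL.ge hs)
      exact ⟨⟨u, hu⟩, fun _ => by rw [← hul]; simpa using hl⟩
    · exact ⟨0, fun h' => absurd h' hs⟩
  choose π hπ using hdec
  have hLim : ∀ e, IsMax H e → im e ≤ im i ⊔ im f → e * m ≠ m * e → ∀ t ∈ im e, t ∈ L → t = 0 := by
    intro e he heW hem t ht htL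
    by_contra ht0
    exact hncj j hj hji e he heW hem (hj.max.commute_of_mem hT he ht (hLj j hj hji htL) ht0).symm
  have hs0 : ∀ δ : D, E δ x - x ≠ 0 := fun δ e0 => by
    obtain ⟨he, -, heW, -, hem⟩ := hE δ
    exact hx0 ((Submodule.eq_bot_iff _).1
      (he.inf_eq_bot hT hj.max (hncj j hj hji _ he heW (hem hp))) x ⟨hx, mem_fx.2 (sub_eq_zero.1 e0)⟩)
  let Θ : D → {u : im i // u ≠ 0} × {u : im i // u ≠ 0} := fun δ =>
    (⟨π (E δ x - x), fun e0 => hs0 δ (hLim _ (hE δ).1 (hE δ).2.2.1 ((hE δ).2.2.2.2 hp) _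
        (sub_mem_im _ _) (by simpa [e0] using hπ (E δ x - x) ((hE δ).2.2.1 (sub_mem_im _ _))))⟩,
     ⟨π δ.1, fun e0 => δ.2.2 (by simpa [e0] using hπ _ δ.2.1)⟩)
  have hinj : Function.Injective Θ := by
    intro δ δ' hΘ
    simp only [Θ, Prod.mk.injEq, Subtype.mk.injEq] at hΘ
    obtain ⟨he, hδe, heW, -, hem⟩ := hE δ
    obtain ⟨he', hδe', heW', -, hem'⟩ := hE δ'
    have hs := hπ _ (heW (sub_mem_im (E δ) x))
    have hs' := hπ _ (heW' (sub_mem_im (E δ') x))
    have hnu : (E δ x - x) - (E δ' x - x) ∈ L := by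
      rw [show (E δ x - x) - (E δ' x - x) = ((E δ x - x) - (π (E δ x - x)).1) -
        ((E δ' x - x) - (π (E δ' x - x)).1) by rw [hΘ.1]; abel]
      exact sub_mem hs hs'
    by_cases hee : E δ = E δ'
    · refine Subtype.ext (sub_eq_zero.1 (hLim _ he heW (hem hp) _ (sub_mem hδe (hee ▸ hδe')) ?_))
      rw [show δ.1 - δ'.1 = (δ.1 - (π δ.1).1) - (δ'.1 - (π δ'.1).1) by rw [hΘ.2]; abel]
      exact sub_mem (hπ _ δ.2.1) (hπ _ δ'.2.1)
    · exfalso
      have hfix := hWe _ he' δ'.1 hδe' (fun e0 => δ'.2.2 (e0 ▸ zero_mem _)) δ'.2.1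
      have hν := hij.eq_zero_of_translate hT hp (mul_mem he'.mem he.mem) (x := x)
        (ν := (E δ x - x) - (E δ' x - x)) (Submodule.mem_sup_right hx)
        ⟨hWi (hLW hnu), hLj j hj hji hnu⟩ (by
          rw [mul_apply, show E δ x = x + (E δ x - x) by abel, map_add,
            mem_fx.1 (hfix (heW (sub_mem_im _ _))),
            show x + (E δ x - x) - x - (E δ' x - x) = -(E δ' x - x) + (E δ x - x) by abel,
            neg_eq hp]
          abel)
      refine hs0 δ (he.disjoint_im hT he' (Ne.symm hee) (sub_mem_im _ _) ?_)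
      rw [sub_eq_zero.1 hν]
      exact sub_mem_im _ _
  haveI : Fintype V := Fintype.ofFinite V
  classical
  have hle := Fintype.card_le_of_injective Θ hinj
  have hD : Fintype.card D + Nat.card L = Nat.card (im i ⊔ im f : Submodule (ZMod p) V) := by
    have h1 := Fintype.card_subtype_compl (fun v : (im i ⊔ im f : Submodule (ZMod p) V) => v.1 ∈ L)
    have e1 : Fintype.card D =
        Fintype.card {v : (im i ⊔ im f : Submodule (ZMod p) V) // ¬ v.1 ∈ L} :=
      Fintype.card_congr
        { toFun := fun v => ⟨⟨v.1, v.2.1⟩, v.2.2⟩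
          invFun := fun v => ⟨v.1.1, v.1.2, v.2⟩
          left_inv := fun _ => rfl
          right_inv := fun _ => rfl }
    have e2 : Fintype.card {v : (im i ⊔ im f : Submodule (ZMod p) V) // v.1 ∈ L} = Nat.card L := by
      rw [← Nat.card_eq_fintype_card]
      exact Nat.card_congr
        { toFun := fun v => ⟨v.1.1, v.2⟩
          invFun := fun v => ⟨⟨v.1, hLW v.2⟩, v.2⟩
          left_inv := fun _ => rfl
          right_inv := fun _ => rfl }
    have h3 := Fintype.card_subtype_le (fun v : (im i ⊔ im f : Submodule (ZMod p) V) => v.1 ∈ L)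
    rw [Nat.card_eq_fintype_card (α := (im i ⊔ im f : Submodule (ZMod p) V))]
    omega
  have hu : Fintype.card {u : im i // u ≠ 0} + 1 = Nat.card (im i) := by
    rw [Fintype.card_subtype_compl, Fintype.card_subtype_eq, Nat.card_eq_fintype_card]
    have : 0 < Fintype.card (im i) := Fintype.card_pos
    omega
  rw [Fintype.card_prod] at hle
  rw [card_submodule, hLd] at hD
  rw [card_submodule, (h.finrank_space hT).2, pow_mul', pow_two] at hD
  rw [card_submodule, h.memI.finrank_im hT h.pair] at hu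
  have h2 : 0 < finrank (ZMod p) (im a) := by
    obtain ⟨t, ht, ht0⟩ := h.pair.fst.exists_im_ne_zero
    exact Submodule.one_le_finrank_iff.2 fun e => ht0 (by rw [e] at ht; exact (Submodule.mem_bot _).1 ht)
  have h3 : 2 ≤ p ^ finrank (ZMod p) (im a) :=
    le_trans (Fact.out : p.Prime).two_le (Nat.le_self_pow h2.ne' p)
  nlinarith

end Cfsg.Agent.H13.Binary
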