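import Cfsg.Agent.H13.Binary.Third

/-!
No third maximal element in odd characteristic: the commuting graph on a three-dimensional
configuration would have an adjacency matrix whose square is the all-one matrix.
-/

set_option autoImplicit false
set_option linter.unusedSectionVars false
set_option linter.style.haveILetI false

namespace Cfsg.Agent.H13.Binary

open Module

variable {p : ℕ} [Fact p.Prime] {V : Type*} [AddCommGroup V] [Module (ZMod p) V] [Finite V]
  {H : Subgroup (V ≃ₗ[ZMod p] V)}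

theorem cast_card_submodule {S : Submodule (ZMod p) V} (hS : S ≠ ⊥) :
    (Nat.card S : ZMod p) = 0 := by
  haveI : Module.Finite (ZMod p) V := Module.Finite.of_finite
  rw [card_submodule, Nat.cast_pow, ZMod.natCast_self, zero_pow]
  have := Submodule.one_le_finrank_iff.2 hS
  omega

variable (hT : Trans H)
include hT

open scoped Classical in
/-- The maximal elements with displacements in a subspace, counted modulo `p`. -/
theorem count_centres {W S : Submodule (ZMod p) V} {d : ℕ} (hd : 0 < d) (hS : S ≠ ⊥)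
    [Fintype {e : V ≃ₗ[ZMod p] V // IsMax H e ∧ im e ≤ W ∧ finrank (ZMod p) (im e) = d}]
    (hcov : ∀ t ∈ S, t ≠ 0 → ∃ e, IsMax H e ∧ im e ≤ W ∧ finrank (ZMod p) (im e) = d ∧ t ∈ im e)
    (hmeet : ∀ e, IsMax H e → im e ≤ W → finrank (ZMod p) (im e) = d →
      ∀ t ∈ im e, t ∈ S → t ≠ 0 → im e ≤ S) :
    (∑ e : {e : V ≃ₗ[ZMod p] V // IsMax H e ∧ im e ≤ W ∧ finrank (ZMod p) (im e) = d},
      if im e.1 ≤ S then (1 : ZMod p) else 0) = 1 := by
  haveI : Module.Finite (ZMod p) V := Module.Finite.of_finite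
  haveI : Fintype V := Fintype.ofFinite V
  let P := {e : V ≃ₗ[ZMod p] V // IsMax H e ∧ im e ≤ W ∧ finrank (ZMod p) (im e) = d}
  let σ := Σ e : {e : P // im e.1 ≤ S}, {t : im e.1.1 // t.1 ≠ 0}
  let f : σ → {t : S // t.1 ≠ 0} := fun x => ⟨⟨x.2.1.1, x.1.2 x.2.1.2⟩, x.2.2⟩
  have hf : Function.Bijective f := by
    refine ⟨fun x y e => ?_, fun t => ?_⟩
    · obtain ⟨⟨⟨ex, hex⟩, hxS⟩, ⟨⟨tx, htx⟩, htx0⟩⟩ := x
      obtain ⟨⟨⟨ey, hey⟩, hyS⟩, ⟨⟨ty, hty⟩, hty0⟩⟩ := y
      have e' : tx = ty := congrArg (fun u : {t : S // t.1 ≠ 0} => u.1.1) e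
      subst e'
      have : ey = ex := hex.1.eq_of_im hT hey.1 htx hty htx0
      subst this
      rfl
    · obtain ⟨e, he, heW, hed, hte⟩ := hcov t.1.1 t.1.2 t.2
      exact ⟨⟨⟨⟨e, he, heW, hed⟩, hmeet e he heW hed _ hte t.1.2 t.2⟩, ⟨⟨t.1.1, hte⟩, t.2⟩⟩, rfl⟩
  have h1 := Fintype.card_congr (Equiv.ofBijective f hf)
  have hne : ∀ M : Submodule (ZMod p) V, M ≠ ⊥ →
      (Fintype.card {t : M // t.1 ≠ 0} : ZMod p) = -1 := by
    intro M hM
    have h2 : Fintype.card {t : M // t.1 ≠ 0} + 1 = Nat.card M := by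
      have he : Fintype.card {t : M // t.1 ≠ 0} = Fintype.card {t : M // ¬ t = 0} :=
        Fintype.card_congr (Equiv.subtypeEquivRight fun t => by simp)
      rw [he, Fintype.card_subtype_compl, Fintype.card_subtype_eq, Nat.card_eq_fintype_card]
      have : 0 < Fintype.card M := Fintype.card_pos
      omega
    have h3 := congrArg (Nat.cast : ℕ → ZMod p) h2
    rw [Nat.cast_add, Nat.cast_one, cast_card_submodule hM] at h3
    exact eq_neg_of_add_eq_zero_left h3
  have h4 := congrArg (Nat.cast : ℕ → ZMod p) h1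
  rw [hne S hS, Fintype.card_sigma, Nat.cast_sum,
    Finset.sum_congr rfl fun e _ => hne (im e.1.1) (fun e0 => by
      have h := e.1.2.2.2
      rw [e0, finrank_bot] at h
      omega),
    Finset.sum_const, nsmul_eq_mul, mul_neg, mul_one, neg_inj, Finset.card_univ] at h4
  rw [Finset.sum_boole, ← Fintype.card_subtype]
  exact h4

theorem Third.cover_all (hp : p ≠ 2) {a b f i : V ≃ₗ[ZMod p] V} (h : Third H a b f i) {δ : V}
    (hδ : δ ∈ span a b ⊔ im f) (h0 : δ ≠ 0) :
    ∃ e, IsMax H e ∧ im e ≤ span a b ⊔ im f ∧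
      Module.finrank (ZMod p) (im e) = Module.finrank (ZMod p) (im a) ∧ δ ∈ im e := by
  haveI : Module.Finite (ZMod p) V := Module.Finite.of_finite
  by_cases hW : δ ∈ im i ⊔ im f
  swap
  · obtain ⟨j, hj, hji, e, he, hδe, heZ⟩ := h.cover hT hδ hW
    exact ⟨e, he.max, heZ, by rw [he.finrank_im hT (h.pairOf hT hj hji), h.dim], hδe⟩
  have hWZ : im i ⊔ im f ≤ span a b ⊔ im f :=
    sup_le ((h.memI.im_le_span hT h.pair).trans le_sup_left) le_sup_right
  by_cases hex : ∃ e, IsMax H e ∧ im e ≤ im i ⊔ im f ∧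
      Module.finrank (ZMod p) (im e) = Module.finrank (ZMod p) (im a) ∧ f * e ≠ e * f
  · obtain ⟨e, he, heW, hed, hne⟩ := hex
    have hp0 : IsPair H f e := ⟨h.max, he, hne⟩
    have hs : span f e = im i ⊔ im f := by
      refine Submodule.eq_of_le_of_finrank_eq (sup_le le_sup_right heW) ?_
      rw [(hp0.finrank_span hT).1, (h.finrank_space hT).2, h.dim]
    obtain ⟨e', he', hδe'⟩ := hp0.cover hT (hs.ge hW) h0
    exact ⟨e', he'.max, (he'.im_le_span hT hp0).trans (hs.le.trans hWZ),
      by rw [he'.finrank_im hT hp0, h.dim], hδe'⟩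
  · exfalso
    push Not at hex
    obtain ⟨L, m, -, -, hLW, hLd, hcov⟩ := h.second hT
    have hall : ∀ x ∈ im i ⊔ im f, x ∈ L ∨ x ∈ im f ∨ x ∈ im i := by
      intro x hx
      refine or_iff_not_imp_left.2 fun hxL => ?_
      obtain ⟨e, he, hxe, heW, hed, -⟩ := hcov x hx hxL
      by_cases hef : e = f
      · exact Or.inl (hef ▸ hxe)
      right
      have hxf := h.max.im_le_fx hT he (hex e he heW hed) hef hxe
      obtain ⟨ui, hui, uf, huf, rfl⟩ := Submodule.mem_sup.1 hx
      have h1 : ui ∈ fx f := (h.inf_span.ge hui).1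
      rw [(Submodule.eq_bot_iff _).1 (h.max.fx_inf_im hT hp) uf
        ⟨by simpa using sub_mem hxf h1, huf⟩, add_zero]
      exact hui
    haveI : Fintype V := Fintype.ofFinite V
    classical
    let T : Submodule (ZMod p) V → Finset V := fun S => Finset.univ.filter fun v => v ∈ S ∧ v ≠ 0
    have hT' : ∀ S : Submodule (ZMod p) V, (T S).card + 1 = Nat.card S := by
      intro S
      rw [Nat.card_eq_fintype_card, Fintype.card_subtype]
      have : T S = (Finset.univ.filter fun v => v ∈ S).erase 0 := by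
        ext v
        simp [T, and_comm]
      rw [this, Finset.card_erase_add_one (by simp)]
    have hsub : T (im i ⊔ im f) ⊆ T L ∪ (T (im f) ∪ T (im i)) := by
      intro v hv
      simp only [T, Finset.mem_filter, Finset.mem_univ, true_and] at hv
      simp only [T, Finset.mem_union, Finset.mem_filter, Finset.mem_univ, true_and]
      rcases hall v hv.1 with h' | h' | h' <;> simp [h', hv.2]
    have hc := (Finset.card_le_card hsub).trans ((Finset.card_union_le _ _).trans
      (Nat.add_le_add_left (Finset.card_union_le _ _) _))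
    have e1 := hT' (im i ⊔ im f)
    have e2 := hT' L
    have e3 := hT' (im f)
    have e4 := hT' (im i)
    rw [card_submodule, (h.finrank_space hT).2, pow_mul', pow_two] at e1
    rw [card_submodule, hLd] at e2
    rw [card_submodule, h.dim] at e3
    rw [card_submodule, h.memI.finrank_im hT h.pair] at e4
    obtain ⟨t, ht, ht0⟩ := h.pair.fst.exists_im_ne_zero
    have h2 : 0 < Module.finrank (ZMod p) (im a) :=
      Submodule.one_le_finrank_iff.2 fun e => ht0 (by rw [e] at ht; exact (Submodule.mem_bot _).1 ht)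
    have h3 : 3 ≤ p ^ Module.finrank (ZMod p) (im a) :=
      le_trans (show 3 ≤ p by have := (Fact.out : p.Prime).two_le; omega) (Nat.le_self_pow h2.ne' p)
    nlinarith

theorem Third.false_of_odd (hp : p ≠ 2) {a b f i : V ≃ₗ[ZMod p] V} (h : Third H a b f i) : False := by
  haveI : Module.Finite (ZMod p) V := Module.Finite.of_finite
  haveI : Finite (V ≃ₗ[ZMod p] V) := Finite.of_injective _ DFunLike.coe_injective
  classical
  set W : Submodule (ZMod p) V := span a b ⊔ im f with hW
  set d := Module.finrank (ZMod p) (im a) with hd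
  obtain ⟨t₀, ht₀, ht₀0⟩ := h.pair.fst.exists_im_ne_zero
  have hdpos : 0 < d := Submodule.one_le_finrank_iff.2 fun e => ht₀0 (by
    rw [e] at ht₀; exact (Submodule.mem_bot _).1 ht₀)
  let P := {e : V ≃ₗ[ZMod p] V // IsMax H e ∧ im e ≤ W ∧ Module.finrank (ZMod p) (im e) = d}
  haveI : Fintype P := Fintype.ofFinite P
  have hcov : ∀ t ∈ W, t ≠ 0 → ∃ e, IsMax H e ∧ im e ≤ W ∧
      Module.finrank (ZMod p) (im e) = d ∧ t ∈ im e := fun t ht h0 => h.cover_all hT hp ht h0
  have hsymm : ∀ e e' : P, im e'.1 ≤ fx e.1 → im e.1 ≤ fx e'.1 := by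
    intro e e' hle
    obtain ⟨t, ht, ht0⟩ := e'.2.1.exists_im_ne_zero
    refine (e.2.1.im_le_fx_symm hT e'.2.1 ht (hle ht) ht0 fun he => ht0 ?_).1
    exact (Submodule.eq_bot_iff _).1 (e.2.1.fx_inf_im hT hp) t ⟨hle ht, he ▸ ht⟩
  have hmeet : ∀ g : P, ∀ e, IsMax H e → ∀ t ∈ im e, t ∈ fx g.1 → t ≠ 0 → im e ≤ fx g.1 := by
    intro g e he t ht htg ht0
    refine (g.2.1.im_le_fx_symm hT he ht htg ht0 fun hne => ht0 ?_).2
    exact (Submodule.eq_bot_iff _).1 (g.2.1.fx_inf_im hT hp) t ⟨htg, hne ▸ ht⟩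
  have hdim : ∀ g : P, Module.finrank (ZMod p) (fx g.1) + d = Module.finrank (ZMod p) V := fun g => by
    have := finrank_fx_add_im (p := p) g.1
    rw [g.2.2.2] at this
    omega
  have hne : ∀ g g' : P, fx g.1 ⊓ fx g'.1 ⊓ W ≠ ⊥ := by
    intro g g' e0
    have h1 := Submodule.finrank_sup_add_finrank_inf_eq (fx g.1 ⊓ fx g'.1) W
    rw [e0, finrank_bot] at h1
    have h2 := Submodule.finrank_sup_add_finrank_inf_eq (fx g.1) (fx g'.1)
    have h3 := Submodule.finrank_le (fx g.1 ⊓ fx g'.1 ⊔ W)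
    have h4 := Submodule.finrank_le (fx g.1 ⊔ fx g'.1)
    have h5 := hdim g
    have h6 := hdim g'
    have h7 : Module.finrank (ZMod p) W = 3 * d := (h.finrank_space hT).1
    omega
  let A : Matrix P P (ZMod p) := fun e e' => if im e'.1 ≤ fx e.1 then 1 else 0
  let J : Matrix P P (ZMod p) := fun _ _ => 1
  have hcount : ∀ S : Submodule (ZMod p) V, S ≠ ⊥ → S ≤ W →
      (∀ e, IsMax H e → im e ≤ W → Module.finrank (ZMod p) (im e) = d →
        ∀ t ∈ im e, t ∈ S → t ≠ 0 → im e ≤ S) →
      (∑ e : P, if im e.1 ≤ S then (1 : ZMod p) else 0) = 1 := fun S hS hSW hm =>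
    count_centres hT hdpos hS (fun t ht h0 => hcov t (hSW ht) h0) hm
  have hrow : ∀ e : P, (∑ e' : P, if im e'.1 ≤ fx e.1 then (1 : ZMod p) else 0) = 1 := by
    intro e
    refine Eq.trans ?_ (hcount (fx e.1 ⊓ W) (fun e0 => hne e e (by rw [inf_idem]; exact e0)) inf_le_right
      (fun g hg hgW _ t ht htS h0 => le_inf (hmeet e g hg t ht htS.1 h0) hgW))
    exact Finset.sum_congr rfl fun g _ => if_congr
      ⟨fun h' => le_inf h' g.2.2.1, fun h' => h'.trans inf_le_left⟩ rfl rfl
  have hsq : A * A = J := by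
    ext e e'
    rw [Matrix.mul_apply]
    show _ = 1
    refine Eq.trans ?_ (hcount (fx e.1 ⊓ fx e'.1 ⊓ W) (hne e e') inf_le_right
      (fun g hg hgW _ t ht htS h0 => le_inf (le_inf (hmeet e g hg t ht htS.1.1 h0)
        (hmeet e' g hg t ht htS.1.2 h0)) hgW))
    refine Finset.sum_congr rfl fun g _ => ?_
    show (if im g.1 ≤ fx e.1 then (1 : ZMod p) else 0) * (if im e'.1 ≤ fx g.1 then 1 else 0) = _
    rw [ite_zero_mul_ite_zero, mul_one]
    exact if_congr ⟨fun h' => le_inf (le_inf h'.1 (hsymm g e' h'.2)) g.2.2.1,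
      fun h' => ⟨h'.trans (inf_le_left.trans inf_le_left),
        hsymm e' g (h'.trans (inf_le_left.trans inf_le_right))⟩⟩ rfl rfl
  have hAJ : A * J = J := by
    ext e e'
    rw [Matrix.mul_apply]
    show _ = 1
    rw [← hrow e]
    exact Finset.sum_congr rfl fun g _ => mul_one _
  have hpow : ∀ k : ℕ, A ^ (k + 2) = J := by
    intro k
    induction k with
    | zero => rw [pow_two, hsq]
    | succ k ih => rw [pow_succ', ih, hAJ]
  have htr : A.trace = 0 := Finset.sum_eq_zero fun e _ => if_neg fun hle => by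
    obtain ⟨t, ht, ht0⟩ := e.2.1.exists_im_ne_zero
    exact ht0 ((Submodule.eq_bot_iff _).1 (e.2.1.fx_inf_im hT hp) t ⟨hle ht, ht⟩)
  have hJ : J.trace = 1 := by
    have h1 := hcount W (fun e0 => by
      have h7 : Module.finrank (ZMod p) W = 3 * d := (h.finrank_space hT).1
      rw [e0, finrank_bot] at h7
      omega) le_rfl (fun g _ hgW _ _ _ _ _ => hgW)
    rw [← h1]
    exact Finset.sum_congr rfl fun g _ => (if_pos g.2.2.1).symm
  have h1 := ZMod.trace_pow_card A
  have h2 : A ^ p = J := (congrArg (A ^ ·) (show p = (p - 2) + 2 by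
    have := (Fact.out : p.Prime).two_le; omega)).trans (hpow (p - 2))
  rw [htr, zero_pow (Fact.out : p.Prime).ne_zero, h2, hJ] at h1
  exact one_ne_zero h1

/-- Outside the plane of a pair a maximal element commutes with every member. -/
theorem IsPair.commute_of_not_inPlane {a b f e : V ≃ₗ[ZMod p] V} (h : IsPair H a b) (hf : IsMax H f)
    (hout : ¬ InPlane H a b f) (he : InPlane H a b e) : f * e = e * f := by
  by_contra hfe
  obtain ⟨i, hi⟩ := h.exists_third hT hf hout he hfe
  by_cases hp : p = 2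
  · exact hi.false_of_two hT hp
  · exact hi.false_of_odd hT hp

end Cfsg.Agent.H13.Binary
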